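import Mathlib.GroupTheory.IsPerfect
import Mathlib.GroupTheory.Commutator.Basic
import Mathlib.GroupTheory.QuotientGroup.Finite
import Mathlib.RepresentationTheory.Basic
import Mathlib.LinearAlgebra.Span.Basic

/-!
Linear actions of perfect groups: triviality criteria used for the `P(G,V)`-theorem.
-/

set_option autoImplicit false

namespace CfsgLib.FFModules.PGV

open scoped commutatorElement

/-- A homomorphism of a perfect group with pairwise commuting values is trivial. -/
theorem map_eq_one_of_commute {H M : Type*} [Group H] [Group.IsPerfect H] [Monoid M] (f : H →* M)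
    (hc : ∀ k l : H, f k * f l = f l * f k) (k : H) : f k = 1 := by
  have hle : commutator H ≤ f.ker := by
    rw [commutator_eq_closure, Subgroup.closure_le]
    rintro _ ⟨a, b, rfl⟩
    show f ⁅a, b⁆ = 1
    rw [commutatorElement_def, map_mul, map_mul, map_mul, hc a b, mul_assoc (f b), ← map_mul,
      ← map_mul, ← map_mul]
    simp
  rw [Group.IsPerfect.commutator_eq_top] at hle
  exact hle (Subgroup.mem_top k)

variable {R V : Type*} [CommRing R] [AddCommGroup V] [Module R V]
variable {H : Type*} [Group H] (σ : H →* Module.End R V)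

/-- The vectors fixed by every element of `H`. -/
def fixed : Submodule R V :=
  ⨅ k : H, LinearMap.ker (σ k - 1)

theorem mem_fixed {v : V} : v ∈ fixed σ ↔ ∀ k, σ k v = v := by
  simp [fixed, sub_eq_zero]

/-- A submodule invariant under `H`. -/
def Stable (M : Submodule R V) : Prop :=
  ∀ k, ∀ v ∈ M, σ k v ∈ M

theorem stable_fixed : Stable σ (fixed σ) := fun k v hv => by
  rw [mem_fixed] at hv ⊢
  intro l
  rw [hv k, hv l]

theorem stable_inf {M N : Submodule R V} (hM : Stable σ M) (hN : Stable σ N) : Stable σ (M ⊓ N) :=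
  fun k v hv => ⟨hM k v hv.1, hN k v hv.2⟩

theorem stable_sup {M N : Submodule R V} (hM : Stable σ M) (hN : Stable σ N) :
    Stable σ (M ⊔ N) := by
  intro k v hv
  obtain ⟨x, hx, y, hy, rfl⟩ := Submodule.mem_sup.1 hv
  rw [map_add]
  exact Submodule.add_mem_sup (hM k x hx) (hN k y hy)

theorem apply_inv_apply (k : H) (v : V) : σ k (σ k⁻¹ v) = v := by
  rw [← Module.End.mul_apply, ← map_mul, mul_inv_cancel, map_one, Module.End.one_apply]

theorem inv_apply_apply (k : H) (v : V) : σ k⁻¹ (σ k v) = v := by
  rw [← Module.End.mul_apply, ← map_mul, inv_mul_cancel, map_one, Module.End.one_apply]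

variable {M : Submodule R V}

/-- A perfect group stabilising a series `0 ≤ F ≤ M` acts trivially on `M`. -/
theorem trivial_of_sub_mem [Group.IsPerfect H] (hM : Stable σ M) {F : Submodule R V}
    (hF : ∀ v ∈ F, ∀ k, σ k v = v) (h : ∀ k, ∀ v ∈ M, σ k v - v ∈ F) :
    ∀ k, ∀ v ∈ M, σ k v = v := by
  let g : H →* Module.End R M :=
    { toFun := fun k => (σ k).restrict (hM k)
      map_one' := by ext v; simp
      map_mul' := fun k l => by ext v; simp }
  have hg : ∀ k l, g k * g l = g l * g k := by
    intro k l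
    refine LinearMap.ext fun v => Subtype.ext ?_
    show σ k (σ l (v : V)) = σ l (σ k (v : V))
    have h1 := hF _ (h l v v.2) k
    have h2 := hF _ (h k v v.2) l
    rw [map_sub, sub_eq_iff_eq_add] at h1 h2
    rw [h1, h2]
    abel
  intro k v hv
  have := congrArg (fun f : Module.End R M => ((f ⟨v, hv⟩ : M) : V)) (map_eq_one_of_commute g hg k)
  exact this

/-- A perfect group whose additive commutators map `M` into the submodule `F` maps all
`σ k - 1` into `F`. -/
theorem sub_mem_of_comm [Group.IsPerfect H] (hM : Stable σ M) (F : Submodule R V)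
    (h : ∀ k l, ∀ v ∈ M, σ (k * l) v - σ (l * k) v ∈ F) :
    ∀ k, ∀ v ∈ M, σ k v - v ∈ F := by
  let N : Subgroup H :=
    { carrier := {k | ∀ v ∈ M, σ k v - v ∈ F}
      one_mem' := fun v _ => by simp
      mul_mem' := fun {a b} ha hb v hv => by
        have h1 := ha _ (hM b v hv)
        have h2 := hb v hv
        rw [map_mul, Module.End.mul_apply]
        rw [← sub_add_sub_cancel _ (σ b v) v]
        exact add_mem h1 h2
      inv_mem' := fun {a} ha v hv => by
        have h1 := ha _ (hM a⁻¹ v hv)
        rw [apply_inv_apply] at h1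
        simpa using neg_mem h1 }
  have hN : commutator H ≤ N := by
    rw [commutator_eq_closure, Subgroup.closure_le]
    rintro _ ⟨a, b, rfl⟩ v hv
    have h1 := h a b (σ (b * a)⁻¹ v) (hM _ v hv)
    rw [apply_inv_apply] at h1
    have e : ⁅a, b⁆ = a * b * (b * a)⁻¹ := by rw [commutatorElement_def]; group
    rw [e, map_mul, Module.End.mul_apply]
    exact h1
  rw [Group.IsPerfect.commutator_eq_top] at hN
  exact fun k v hv => hN (Subgroup.mem_top k) v hv

/-- If the additive commutators of a perfect group send `M` to fixed vectors, the group acts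
trivially on `M`. -/
theorem trivial_of_comm [Group.IsPerfect H] (hM : Stable σ M)
    (h : ∀ k l, ∀ v ∈ M, σ (k * l) v - σ (l * k) v ∈ fixed σ) :
    ∀ k, ∀ v ∈ M, σ k v = v :=
  trivial_of_sub_mem σ hM (F := fixed σ) (fun v hv k => (mem_fixed σ).1 hv k)
    (sub_mem_of_comm σ hM (fixed σ) h)

/-- A perfect group with commuting conjugate `σ'`, both fixing `(α - 1)M` pointwise, acts
trivially on `M`. -/
theorem trivial_of_fix_image [Group.IsPerfect H] {M : Submodule R V} (σ' : H →* Module.End R V)
    (α : Module.End R V) (hM : Stable σ M) (hα : ∀ k, α * σ k = σ' k * α)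
    (hcomm : ∀ k l, Commute (σ k) (σ' l))
    (h : ∀ v ∈ M, ∀ k, σ k (α v - v) = α v - v ∧ σ' k (α v - v) = α v - v) :
    ∀ k, ∀ v ∈ M, σ k v = v := by
  have h1 : ∀ k, ∀ v ∈ M, σ' k v - σ k v ∈ fixed σ := by
    intro k v hv
    have e : α (σ k v) = σ' k (α v) := LinearMap.congr_fun (hα k) v
    have e2 : σ' k v - σ k v = (α (σ k v) - σ k v) - (α v - v) := by
      have h' := (h v hv k).2
      rw [map_sub, sub_eq_iff_eq_add] at h'
      rw [e, h']
      abel
    rw [e2, mem_fixed]
    intro l
    rw [map_sub, (h _ (hM k v hv) l).1, (h v hv l).1]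
  have h2 : ∀ k l, ∀ u ∈ M, σ' k (σ l u - u) = σ l (σ k u) - σ k u := by
    intro k l u hu
    have := (mem_fixed σ).1 (h1 k u hu) l
    rw [map_sub] at this
    have e : σ' k (σ l u) = σ l (σ' k u) := (LinearMap.congr_fun (hcomm l k).eq u).symm
    rw [sub_eq_iff_eq_add] at this
    rw [map_sub, e, this]
    abel
  refine trivial_of_comm σ hM fun k l u hu => ?_
  have h3 := h1 k _ (sub_mem (hM l u hu) hu)
  rw [h2 k l u hu, map_sub] at h3
  have e : σ (k * l) u - σ (l * k) u = -(σ l (σ k u) - σ k u - (σ k (σ l u) - σ k u)) := by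
    simp only [map_mul, Module.End.mul_apply]
    abel
  rw [e]
  exact neg_mem h3

theorem exists_apply_sub [Group.IsPerfect H] (σ' : H →* Module.End R V)
    (α : Module.End R V) (hM : Stable σ M) (hα : ∀ k, α * σ k = σ' k * α)
    (hcomm : ∀ k l, Commute (σ k) (σ' l)) (hne : ∃ k, ∃ v ∈ M, σ k v ≠ v) :
    ∃ v ∈ M, ∃ k, σ k (α v - v) ≠ α v - v ∨ σ' k (α v - v) ≠ α v - v := by
  by_contra hc
  push Not at hc
  obtain ⟨k, v, hv, hk⟩ := hne
  exact hk (trivial_of_fix_image σ σ' α hM hα hcomm hc k v hv)

/-- In odd characteristic a perfect group whose additive commutators commute with each other on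
`M` acts trivially on `M`. -/
theorem trivial_of_commutators_commute [Group.IsPerfect H] [Finite V]
    (h2 : ∀ v : V, v + v = 0 → v = 0) (M : Submodule R V) (hM : Stable σ M)
    (h : ∀ k l m n, ∀ v ∈ M, (σ (k * l) - σ (l * k)) ((σ (m * n) - σ (n * m)) v) =
      (σ (m * n) - σ (n * m)) ((σ (k * l) - σ (l * k)) v)) :
    ∀ k, ∀ v ∈ M, σ k v = v := by
  induction hc : Nat.card M using Nat.strong_induction_on generalizing M with
  | _ c ih =>
  subst hc
  -- proper invariant submodules are fixed pointwise
  have hsub : ∀ S : Submodule R V, Stable σ S → S ≤ M → S ≠ M → S ≤ fixed σ := by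
    intro S hS hSM hne v hv
    rw [mem_fixed]
    intro k
    refine ih (Nat.card S) ?_ S hS (fun a b c d x hx => h a b c d x (hSM hx)) rfl k v hv
    exact Set.ncard_lt_ncard ((SetLike.coe_subset_coe.2 hSM).ssubset_of_ne fun e => hne (SetLike.coe_injective e))
      (Set.toFinite _)
  suffices key : ∀ a b y, ∀ v ∈ M, σ y ((σ (a * b) - σ (b * a)) v) -
      (σ (a * b) - σ (b * a)) (σ y v) ∈ fixed σ by
    refine trivial_of_comm σ hM fun a b v hv => ?_
    set u : Module.End R V := σ (a * b) - σ (b * a) with hu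
    have huM : ∀ v ∈ M, u v ∈ M := fun v hv => sub_mem (hM _ v hv) (hM _ v hv)
    have huu : ∀ v ∈ M, u (u v) ∈ fixed σ := by
      intro v hv
      have h3 := sub_mem (key a b b _ (hM a v hv)) (key a (b * a) b v hv)
      convert h3 using 1
      simp only [hu, map_mul, LinearMap.sub_apply, Module.End.mul_apply, map_sub]
      abel
    let S : Submodule R V := M.map u ⊔ (fixed σ ⊓ M)
    have hS : Stable σ S := by
      intro k w hw
      obtain ⟨_, ⟨x, hx, rfl⟩, y, hy, rfl⟩ := Submodule.mem_sup.1 hw
      rw [map_add, show σ k (u x) = u (σ k x) + (σ k (u x) - u (σ k x)) from (add_sub_cancel _ _).symm,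
        add_assoc]
      exact Submodule.add_mem_sup (Submodule.mem_map_of_mem (hM k x hx)) (add_mem
        ⟨key a b k x hx, sub_mem (hM k _ (huM x hx)) (huM _ (hM k x hx))⟩
        (stable_inf σ (stable_fixed σ) hM k y hy))
    have hSM : S ≤ M := sup_le (Submodule.map_le_iff_le_comap.2 huM) inf_le_right
    have hmem : u v ∈ S := Submodule.mem_sup_left (Submodule.mem_map_of_mem hv)
    show u v ∈ fixed σ
    by_cases hSe : S = M
    · obtain ⟨_, ⟨x, hx, rfl⟩, y, hy, hxy⟩ := Submodule.mem_sup.1 (show v ∈ S from hSe.symm ▸ hv)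
      rw [← hxy, map_add]
      have : u y = 0 := by
        simp [hu, (mem_fixed σ).1 hy.1]
      rw [this, add_zero]
      exact huu x hx
    · exact hsub S hS hSM hSe hmem
  intro a b
  set u : Module.End R V := σ (a * b) - σ (b * a) with hu
  let d : H → Module.End R V := fun x => σ x * u - u * σ x
  have hd_comm : ∀ x, ∀ v ∈ M, u (d x v) = d x (u v) := by
    intro x v hv
    have e : ∀ w, d x w = (σ (x * (a * b)) - σ ((a * b) * x)) w -
        (σ (x * (b * a)) - σ ((b * a) * x)) w := fun w => by
      simp only [d, hu, map_mul, LinearMap.sub_apply, Module.End.mul_apply, map_sub]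
      abel
    rw [e v, e (u v), map_sub, hu, h a b x (a * b) v hv, h a b x (b * a) v hv]
  have huM : ∀ v ∈ M, u v ∈ M := fun v hv => sub_mem (hM _ v hv) (hM _ v hv)
  have hdM : ∀ x, ∀ v ∈ M, d x v ∈ M := fun x v hv =>
    sub_mem (hM x _ (huM v hv)) (huM _ (hM x v hv))
  have hd_mul : ∀ x y, d (x * y) = d x * σ y + σ x * d y := fun x y => by
    simp only [d, map_mul, sub_mul, mul_sub, mul_assoc]
    abel
  have hd0 : ∀ x y, ∀ v ∈ M, d x (d y v) = 0 := by
    intro x y v hv
    refine h2 _ ?_
    have h3 := hd_comm (x * y) v hv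
    simp only [hd_mul, LinearMap.add_apply, Module.End.mul_apply, map_add] at h3
    have e1 : u (σ x (d y v)) = σ x (u (d y v)) - d x (d y v) := by
      simp only [d, LinearMap.sub_apply, Module.End.mul_apply]
      abel
    have e2 : σ y (u v) = u (σ y v) + d y v := by
      simp only [d, LinearMap.sub_apply, Module.End.mul_apply]
      abel
    rw [e1, e2, hd_comm x _ (hM y v hv), hd_comm y v hv, map_add] at h3
    rw [← sub_eq_zero] at h3
    rw [← neg_eq_zero, ← h3]
    abel
  have hd1 : ∀ x y z, ∀ v ∈ M, d x (σ z (d y v)) = 0 := by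
    intro x y z v hv
    have h3 := hd0 x (z * y) v hv
    rw [hd_mul, LinearMap.add_apply, Module.End.mul_apply, Module.End.mul_apply, map_add,
      hd0 x z _ (hM y v hv), zero_add] at h3
    exact h3
  have hdfix : ∀ y, ∀ v ∈ M, d y v ∈ fixed σ := by
    intro y v hv
    let S : Submodule R V := Submodule.span R (Set.range fun z => σ z (d y v))
    have hS : Stable σ S := by
      intro k
      refine Submodule.span_le (p := S.comap (σ k)) |>.2 ?_
      rintro _ ⟨z, rfl⟩
      refine Submodule.subset_span ⟨k * z, ?_⟩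
      simp
    have hSM : S ≤ M := Submodule.span_le.2 (by rintro _ ⟨z, rfl⟩; exact hM z _ (hdM y v hv))
    have hmem : d y v ∈ S := Submodule.subset_span ⟨1, by simp⟩
    by_cases hSe : S = M
    · have hk : S ≤ LinearMap.ker (d y) := Submodule.span_le.2 (by
        rintro _ ⟨z, rfl⟩; exact hd1 y y z v hv)
      have : d y v = 0 := hk (hSe ▸ hv)
      rw [this]; exact zero_mem _
    · exact hsub S hS hSM hSe hmem
  exact hdfix

end CfsgLib.FFModules.PGV
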