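import Cfsg.Agent.Lib.FFModules.PGVTheorem
import Cfsg.Agent.Lib.Cores.Components
import Cfsg.Agent.Lib.Subnormal.Basic

/-!
A best offender normalises every component.
-/

set_option autoImplicit false

namespace CfsgLib.FFModules.PGV

variable {p : ℕ} [hp : Fact p.Prime] {V : Type*} [AddCommGroup V] [Module (ZMod p) V] [Finite V]
variable {G : Type*} [Group G] [Finite G]

/-- The subgroup of elements leaving a submodule invariant. -/
def stab (ρ : G →* Module.End (ZMod p) V) (W : Submodule (ZMod p) V) : Subgroup G where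
  carrier := {x | ∀ v ∈ W, ρ x v ∈ W}
  one_mem' := fun v hv => by simpa using hv
  mul_mem' := fun {x y} hx hy v hv => by
    rw [map_mul, Module.End.mul_apply]; exact hx _ (hy v hv)
  inv_mem' := fun {x} hx => by
    have hpow : ∀ n : ℕ, ∀ v ∈ W, ρ (x ^ n) v ∈ W := by
      intro n
      induction n with
      | zero => intro v hv; simpa using hv
      | succ n ih =>
        intro v hv
        rw [pow_succ', map_mul, Module.End.mul_apply]
        exact hx _ (ih v hv)
    have e : x⁻¹ = x ^ (orderOf x - 1) := by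
      rw [inv_eq_iff_mul_eq_one, ← pow_succ', Nat.sub_add_cancel (orderOf_pos x), pow_orderOf_eq_one]
    show ∀ v ∈ W, ρ x⁻¹ v ∈ W
    rw [e]
    exact hpow _

theorem normalizes_component (ρ : G →* Module.End (ZMod p) V) (hρ : Function.Injective ρ)
    (A : Subgroup G) (hAc : ∀ a ∈ A, ∀ b ∈ A, a * b = b * a) (hAp : ∀ a ∈ A, a ^ p = 1)
    (hbest : ∀ C ≤ A, Nat.card C * Nat.card {v : V // ∀ c ∈ C, ρ c v = v} ≤
      Nat.card A * Nat.card {v : V // ∀ a ∈ A, ρ a v = v})
    (K : Subgroup G) (hK : Cfsg.IsComponent K) : A ≤ Subgroup.normalizer (K : Set G) := by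
  have : Group.IsPerfect K := hK.2.1
  -- the conjugates
  have hdich : ∀ g ∈ A, (∀ k : K, ∃ k' : K, g * (k : G) * g⁻¹ = k') ∨
      ∀ k l : K, Commute (g * (k : G) * g⁻¹) (l : G) := by
    intro g _
    have hK' := CfsgLib.Cores.isComponent_map_equiv hK (MulAut.conj g)
    rcases CfsgLib.Cores.le_or_commutator_eq_bot hK hK'.1 with h | h
    · left
      intro k
      have e : K = K.map (MulAut.conj g).toMonoidHom := Subgroup.eq_of_le_of_card_ge h
        (Nat.card_congr (K.equivMapOfInjective _ (MulAut.conj g).injective).toEquiv).symm.le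
      refine ⟨⟨_, e.symm ▸ Subgroup.mem_map_of_mem _ k.2⟩, ?_⟩
      rfl
    · right
      intro k l
      exact (commutatorElement_eq_one_iff_commute.1 (Subgroup.mem_bot.1
        (h ▸ Subgroup.commutator_mem_commutator l.2 (Subgroup.mem_map_of_mem _ k.2)))).symm
  -- the submodule generated by the commutators
  set W : Submodule (ZMod p) V :=
    Submodule.span (ZMod p) {w | ∃ g ∈ A, ∃ k : K, ∃ v, ρ (g * (k : G) * g⁻¹) v - v = w} with hWdef
  have hAG : A ≤ stab ρ W := by
    intro h hh v hv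
    refine Submodule.span_le (p := W.comap (ρ h)) |>.2 ?_ hv
    rintro _ ⟨g, hg, k, u, rfl⟩
    refine Submodule.subset_span ⟨h * g, mul_mem hh hg, k, ρ h u, ?_⟩
    show ρ (h * g * (k : G) * (h * g)⁻¹) (ρ h u) - ρ h u = ρ h (ρ (g * (k : G) * g⁻¹) u - u)
    rw [map_sub, ← Module.End.mul_apply, ← map_mul, ← Module.End.mul_apply, ← map_mul]
    congr 3
    group
  have hKG : ∀ g ∈ A, ∀ k : K, g * (k : G) * g⁻¹ ∈ stab ρ W := by
    intro g hg k v hv
    have := add_mem (Submodule.subset_span ⟨g, hg, k, v, rfl⟩ :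
      ρ (g * (k : G) * g⁻¹) v - v ∈ W) hv
    rwa [sub_add_cancel] at this
  have hK1 : ∀ k : K, (k : G) ∈ stab ρ W := fun k => by simpa using hKG 1 (one_mem _) k
  let ι : K →* stab ρ W := K.subtype.codRestrict _ hK1
  let ρW : stab ρ W →* Module.End (ZMod p) W :=
    restrictHom (ρ.comp (stab ρ W).subtype) W fun x => x.2
  set A' := A.subgroupOf (stab ρ W) with hA'
  have hgen : ∀ g ∈ A, ∀ k : K, ∀ v ∈ W, ρ (g * (k : G) * g⁻¹) v ∈ W := fun g hg k => hKG g hg k
  -- `[W, E] = W`
  have hfull : Submodule.span (ZMod p)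
      {w | ∃ g ∈ A', ∃ k v, ρW (g * ι k * g⁻¹) v - v = w} = ⊤ := by
    set S := Submodule.span (ZMod p) {w | ∃ g ∈ A', ∃ k v, ρW (g * ι k * g⁻¹) v - v = w} with hS
    suffices hle : W ≤ S.map W.subtype by
      refine top_le_iff.1 fun v _ => ?_
      obtain ⟨u, hu, huv⟩ := hle v.2
      rwa [← Subtype.ext huv]
    refine Submodule.span_le.2 ?_
    rintro _ ⟨g, hg, k, v, rfl⟩
    refine sub_mem_of_comm (ρ.comp ((MulAut.conj g).toMonoidHom.comp K.subtype)) (M := ⊤)
      (fun _ _ _ => Submodule.mem_top) (S.map W.subtype) (fun a b u _ => ?_) k v Submodule.mem_top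
    set σ := ρ.comp ((MulAut.conj g).toMonoidHom.comp K.subtype) with hσ
    have hmem : ∀ x y : K, ∀ u, σ x (σ y u - u) - (σ y u - u) ∈ S.map W.subtype := fun x y u =>
      ⟨_, Submodule.subset_span ⟨⟨g, hAG hg⟩, hg, x,
        ⟨σ y u - u, Submodule.subset_span ⟨g, hg, y, u, rfl⟩⟩, rfl⟩, rfl⟩
    have h := sub_mem (hmem a b u) (hmem b a u)
    convert h using 1
    simp only [map_mul, Module.End.mul_apply, map_sub]
    abel
  have hnt : ∃ k, ρW (ι k) ≠ 1 := by
    by_contra hc
    push Not at hc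
    have hnontriv := CfsgLib.Cores.nontrivial_of_isQuasisimple hK.2
    obtain ⟨k, hk⟩ := exists_ne (1 : K)
    have hzero : Submodule.span (ZMod p)
        {w | ∃ g ∈ A', ∃ k v, ρW (g * ι k * g⁻¹) v - v = w} = ⊥ := by
      rw [Submodule.span_eq_bot]
      rintro _ ⟨g, -, l, v, rfl⟩
      rw [map_mul, map_mul, hc, mul_one, ← map_mul, mul_inv_cancel, map_one, Module.End.one_apply,
        sub_self]
    rw [hfull] at hzero
    refine hk (Subtype.ext (hρ (LinearMap.ext fun v => ?_)))
    have hw : ρ (k : G) v - v ∈ W := Submodule.subset_span ⟨1, one_mem _, k, v, by simp⟩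
    have hmem : (⟨ρ (k : G) v - v, hw⟩ : W) ∈ (⊤ : Submodule (ZMod p) W) := Submodule.mem_top
    rw [hzero] at hmem
    have h : ρ (k : G) v - v = 0 :=
      congrArg (Subtype.val : W → V) ((Submodule.mem_bot (ZMod p)).1 hmem)
    rw [sub_eq_zero] at h
    rw [OneMemClass.coe_one, map_one, Module.End.one_apply]
    exact h
  have S : Setup ι ρW A' :=
    { comm := fun a ha b hb => Subtype.ext (hAc a ha b hb)
      exp := fun a ha => Subtype.ext (by simpa using hAp a ha)
      inj := fun a b h => Subtype.ext (congrArg (fun x : stab ρ W => (x : G)) h)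
      dich := fun g hg => (hdich g hg).imp
        (fun h k => by obtain ⟨k', hk'⟩ := h k; exact ⟨k', Subtype.ext hk'⟩)
        (fun h k l => Subtype.ext (h k l))
      normal_le := fun N hN hne =>
        (CfsgLib.Cores.subnormal_eq_top_or_le_center hK.2 hN.isSubnormal).resolve_left hne
      nontriv := hnt }
  have hbest' : ∀ C ≤ A', Nat.card C * Nat.card {v : W // ∀ c ∈ C, ρW c v = v} ≤
      Nat.card A' * Nat.card {v : W // ∀ a ∈ A', ρW a v = v} := by
    intro C hC
    set C₀ := C.map (stab ρ W).subtype with hC₀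
    have hC₀A : C₀ ≤ A := by rintro _ ⟨c, hc, rfl⟩; exact hC hc
    have h := hbest C₀ hC₀A
    rw [← Nat.card_congr (C.equivMapOfInjective _ (stab ρ W).subtype_injective).toEquiv,
      ← Nat.card_congr (Subgroup.subgroupOfEquivOfLe hAG).toEquiv] at h
    let fix' : Subgroup G → AddSubgroup V := fun D =>
      { carrier := {v | ∀ c ∈ D, ρ c v = v}
        zero_mem' := fun c _ => map_zero _
        add_mem' := fun {a b} ha hb c hc => by rw [map_add, ha c hc, hb c hc]
        neg_mem' := fun {a} ha c hc => by rw [map_neg, ha c hc] }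
    have hle : fix' A ≤ fix' C₀ := fun v hv c hc => hv c (hC₀A hc)
    have eC : Nat.card {v : W // ∀ c ∈ C, ρW c v = v} = Nat.card ↥(fix' C₀ ⊓ W.toAddSubgroup) :=
      Nat.card_congr ⟨fun v => ⟨v.1.1, by rintro _ ⟨c, hc, rfl⟩; exact congrArg Subtype.val (v.2 c hc),
          v.1.2⟩,
        fun v => ⟨⟨v.1, v.2.2⟩, fun c hc => Subtype.ext (v.2.1 _ ⟨c, hc, rfl⟩)⟩,
        fun _ => rfl, fun _ => rfl⟩
    have eA : Nat.card {v : W // ∀ a ∈ A', ρW a v = v} = Nat.card ↥(fix' A ⊓ W.toAddSubgroup) :=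
      Nat.card_congr ⟨fun v => ⟨v.1.1, fun a ha => congrArg Subtype.val (v.2 ⟨a, hAG ha⟩ ha), v.1.2⟩,
        fun v => ⟨⟨v.1, v.2.2⟩, fun c hc => Subtype.ext (v.2.1 _ hc)⟩, fun _ => rfl, fun _ => rfl⟩
    have hmul : ∀ P Q : AddSubgroup V, P ≤ Q → P.relIndex Q * Nat.card P = Nat.card Q := fun P Q hPQ => by
      rw [mul_comm, ← AddSubgroup.relIndex_bot_left, AddSubgroup.relIndex_mul_relIndex _ _ _ bot_le hPQ,
        AddSubgroup.relIndex_bot_left]
    have e1 := hmul _ _ hle
    have e2 := hmul _ _ (inf_le_inf_right W.toAddSubgroup hle)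
    have e3 : (fix' A ⊓ W.toAddSubgroup).relIndex (fix' C₀ ⊓ W.toAddSubgroup) =
        (fix' A).relIndex (fix' C₀ ⊓ W.toAddSubgroup) := by
      rw [← AddSubgroup.inf_relIndex_right (fix' A ⊓ W.toAddSubgroup),
        ← AddSubgroup.inf_relIndex_right (fix' A)]
      congr 1
      rw [inf_assoc]
      congr 1
      exact inf_eq_right.2 inf_le_right
    have e4 : (fix' A).relIndex (fix' C₀ ⊓ W.toAddSubgroup) ≤ (fix' A).relIndex (fix' C₀) :=
      AddSubgroup.relIndex_le_of_le_right inf_le_left AddSubgroup.index_ne_zero_of_finite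
    change Nat.card C * Nat.card (fix' C₀) ≤ Nat.card A' * Nat.card (fix' A) at h
    rw [← e1, ← mul_assoc] at h
    have h' := Nat.le_of_mul_le_mul_right h Nat.card_pos
    rw [eC, eA, ← e2, e3, ← mul_assoc]
    exact Nat.mul_le_mul_right _ ((Nat.mul_le_mul_left _ e4).trans h')
  have : Finite W := inferInstance
  intro a ha
  have hN := S.nrm hbest' hfull ⟨a, hAG ha⟩ ha
  have hle : K.map (MulAut.conj a).toMonoidHom ≤ K := by
    rintro _ ⟨k, hk, rfl⟩
    obtain ⟨k', hk'⟩ := hN ⟨k, hk⟩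
    have : a * k * a⁻¹ = (k' : G) := congrArg Subtype.val hk'
    show a * k * a⁻¹ ∈ K
    rw [this]
    exact k'.2
  exact CfsgLib.Subnormal.mem_normalizer_iff_map_conj.2 (Subgroup.eq_of_le_of_card_ge hle
    (Nat.card_congr (K.equivMapOfInjective _ (MulAut.conj a).injective).toEquiv).le)

end CfsgLib.FFModules.PGV
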