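import Mathlib.Algebra.CharP.Two
import Mathlib.FieldTheory.Finite.Basic
import Mathlib.LinearAlgebra.Matrix.GeneralLinearGroup.Card
import Mathlib.LinearAlgebra.Matrix.Trace
import Mathlib.LinearAlgebra.FiniteDimensional.Lemmas
import Mathlib.LinearAlgebra.Dimension.Constructions
import Mathlib.Tactic.LinearCombination
import Mathlib.Tactic.NoncommRing
import Mathlib.Algebra.CharP.Reduced

/-!
The matrix computation in the proof of the `P(G,V)`-theorem for `p = 2`: commuting quadratic
automorphisms of a ring of `2 × 2` matrices over a field of characteristic 2.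
-/

set_option autoImplicit false

namespace CfsgLib.FFModules.PGV

open Matrix

variable {F : Type*} [Field F] [CharP F 2]

/-- In characteristic 2 a trace-like map on `d × d` matrices, `d ≥ 2`, forces `d = 2`. -/
theorem dim_eq_two {d : ℕ} (hd : 2 ≤ d)
    (tr : Matrix (Fin d) (Fin d) F → Matrix (Fin d) (Fin d) F)
    (hsc : ∀ r, ∃ a : F, tr r = a • 1)
    (hid : ∀ r s, ∃ a : F, r * s + s * r + tr r * s + tr s * r = a • 1) : d = 2 := by
  by_contra hne
  let i : Fin d := ⟨0, by omega⟩
  let j : Fin d := ⟨1, by omega⟩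
  let k : Fin d := ⟨2, by omega⟩
  have hij : i ≠ j := by simp [i, j, Fin.ext_iff]
  have hki : k ≠ i := by simp [i, k, Fin.ext_iff]
  have hkj : k ≠ j := by simp [j, k, Fin.ext_iff]
  obtain ⟨a, ha⟩ := hsc (single i i 1)
  obtain ⟨b, hb⟩ := hsc (single j j 1)
  obtain ⟨c, hc⟩ := hid (single i i 1) (single j j 1)
  rw [ha, hb] at hc
  have e1 : single i i (1 : F) * single j j 1 = 0 := by simp [hij, hij.symm]
  have e2 : single j j (1 : F) * single i i 1 = 0 := by simp [hij, hij.symm]
  rw [e1, e2, zero_add, zero_add, smul_mul_assoc, one_mul, smul_mul_assoc, one_mul] at hc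
  have hk := congrFun (congrFun hc k) k
  simp [Matrix.add_apply, Matrix.single, hki.symm, hkj.symm] at hk
  subst hk
  have hj := congrFun (congrFun hc j) j
  simp [Matrix.add_apply, Matrix.single, hij] at hj
  subst hj
  obtain ⟨e, he⟩ := hsc (single i j 1)
  obtain ⟨f, hf⟩ := hid (single i i 1) (single i j 1)
  rw [ha, he] at hf
  have e3 : single i j (1 : F) * single i i 1 = 0 := by simp [hij, hij.symm]
  rw [single_mul_single_same, e3, zero_smul, zero_mul, add_zero, add_zero, smul_mul_assoc, one_mul,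
    one_mul] at hf
  have h := congrFun (congrFun hf i) j
  simp [Matrix.add_apply, Matrix.single, hij] at h

local notation "M₂" => Matrix (Fin 2) (Fin 2) F

theorem sq_eq_trace (r : M₂) : r * r = r.trace • r + r.det • 1 := by
  ext i j
  fin_cases i <;> fin_cases j <;>
    simp [Matrix.mul_apply, Matrix.trace, Matrix.det_fin_two, Fin.sum_univ_two, CharTwo.sub_eq_add] <;>
    ring_nf <;> simp [CharTwo.two_eq_zero]

theorem mul_add_mul_eq (r s : M₂) :
    ∃ a : F, r * s + s * r + r.trace • s + s.trace • r = a • 1 := by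
  refine ⟨(r + s).det + r.det + s.det, ?_⟩
  have h := sq_eq_trace (r + s)
  rw [add_mul, mul_add, mul_add, sq_eq_trace r, sq_eq_trace s, trace_add, add_smul, smul_add,
    smul_add] at h
  ext i j
  have h' := congrFun (congrFun h i) j
  simp only [Matrix.add_apply, Matrix.smul_apply, smul_eq_mul, add_mul] at h' ⊢
  have h2 : (2 : F) = 0 := CharTwo.two_eq_zero
  linear_combination h' + (r.trace * s i j + s.trace * r i j - r.det * (1 : M₂) i j - s.det * (1 : M₂) i j) * h2

/-- The trace-like map is the trace. -/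
theorem eq_trace (tr : M₂ → M₂) (hsc : ∀ r, ∃ a : F, tr r = a • 1)
    (hid : ∀ r s, ∃ a : F, r * s + s * r + tr r * s + tr s * r = a • 1) (r : M₂) :
    tr r = r.trace • 1 := by
  choose t ht using hsc
  suffices h : t r = r.trace by rw [ht, h]
  have key : ∀ r s : M₂, ∃ a : F, (t r + r.trace) • s + (t s + s.trace) • r = a • 1 := by
    intro r s
    obtain ⟨a, ha⟩ := hid r s
    obtain ⟨b, hb⟩ := mul_add_mul_eq r s
    refine ⟨a + b, ?_⟩
    rw [ht, ht, smul_mul_assoc, one_mul, smul_mul_assoc, one_mul] at ha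
    rw [add_smul a, ← ha, ← hb]
    ext i j
    simp only [Matrix.add_apply, Matrix.smul_apply, smul_eq_mul, add_mul]
    have h2 : (2 : F) = 0 := CharTwo.two_eq_zero
    linear_combination -(((r * s) i j) + ((s * r) i j)) * h2
  obtain ⟨a, ha⟩ := key r (single 0 1 1)
  obtain ⟨b, hb⟩ := key r (single 1 0 1)
  obtain ⟨c, hc⟩ := key r (single 0 0 1)
  obtain ⟨d, hd⟩ := key r r
  have e01 := congrFun (congrFun ha 0) 1
  have e00 := congrFun (congrFun ha 0) 0
  have e11 := congrFun (congrFun ha 1) 1
  have f10 := congrFun (congrFun hb 1) 0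
  have g00 := congrFun (congrFun hc 0) 0
  have g11 := congrFun (congrFun hc 1) 1
  have g01 := congrFun (congrFun hc 0) 1
  simp [Matrix.add_apply, Matrix.single] at e01 e00 e11 f10 g00 g11 g01
  rw [← CharTwo.add_eq_zero]
  by_contra hne
  have h01 : r 0 1 ≠ 0 := fun h => hne (by rwa [h, mul_zero, add_zero] at e01)
  rcases g01 with hg | hg
  · rw [hg, zero_mul, add_zero] at g00
    rw [hg, zero_mul] at g11
    exact hne (g00.trans g11.symm)
  · exact h01 hg

variable [Finite F] {Γ : Type*}

/-- Commuting quadratic automorphisms of `M₂(F)` which fix the scalars: if their number, times the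
number of common fixed points of trace zero, is large, then `|F| = 2`. -/
theorem card_eq_two (θ : Γ → M₂ ≃+* M₂) (hscal : ∀ g (a : F), θ g (a • 1) = a • 1)
    (htr : ∀ g r, (θ g r).trace = r.trace)
    (h2 : ∀ g h r, θ g (θ h r - r) = θ h r - r)
    (hcount : Nat.card M₂ ≤ 2 * (Set.range fun g => (θ g : M₂ → M₂)).ncard *
        Nat.card {r : M₂ // r.trace = 0 ∧ ∀ g, θ g r = r} ∨
      (∃ g r, θ g r ≠ r) ∧ Nat.card M₂ ≤ 2 * (Set.range fun g => (θ g : M₂ → M₂)).ncard *
        Nat.card {r : M₂ // ∀ g, θ g r = r}) :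
    Nat.card F = 2 := by
  set q := Nat.card F with hq
  have hq2 : 2 ≤ q := Finite.one_lt_card
  have hM : Nat.card M₂ = q ^ 4 := by
    rw [Nat.card_congr (Matrix.of (m := Fin 2) (n := Fin 2) (α := F)).symm, Nat.card_fun,
      Nat.card_fun, Nat.card_fin, ← pow_mul]
  have h2' : (2 : F) = 0 := CharTwo.two_eq_zero
  have hneg : ∀ r : M₂, -r = r := fun r => by ext i j; simp [CharTwo.neg_eq]
  have hsmul : ∀ g (a : F) r, θ g (a • r) = a • θ g r := fun g a r => by
    rw [← one_mul r, ← smul_mul_assoc, map_mul, hscal, smul_mul_assoc, one_mul, one_mul]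
  let m : Γ → M₂ →ₗ[F] M₂ := fun g =>
    { toFun := fun r => θ g r - r
      map_add' := fun r s => by rw [map_add]; abel
      map_smul' := fun a r => by rw [hsmul, RingHom.id_apply, smul_sub] }
  have hm : ∀ g r, m g r = θ g r - r := fun g r => rfl
  have hone : ∀ g, m g 1 = 0 := fun g => by rw [hm, map_one, sub_self]
  have htrm : ∀ g r, (m g r).trace = 0 := fun g r => by rw [hm, trace_sub, htr, sub_self]
  by_cases htriv : ∀ g, m g = 0
  · have h1 : (Set.range fun g => (θ g : M₂ → M₂)).ncard ≤ 1 := by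
      refine (Set.ncard_le_one (Set.toFinite _)).2 ?_
      rintro _ ⟨g, rfl⟩ _ ⟨h, rfl⟩
      funext r
      have a := LinearMap.congr_fun (htriv g) r
      have b := LinearMap.congr_fun (htriv h) r
      rw [hm, LinearMap.zero_apply, sub_eq_zero] at a b
      show θ g r = θ h r
      rw [a, b]
    have h3 : Nat.card {r : M₂ // r.trace = 0 ∧ ∀ g, θ g r = r} ≤ q ^ 3 := by
      rw [hq, show Nat.card F ^ 3 = Nat.card (F × F × F) by rw [Nat.card_prod, Nat.card_prod]; ring]
      refine Nat.card_le_card_of_injective (fun r => (r.1 0 0, r.1 0 1, r.1 1 0)) ?_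
      intro x y hxy
      obtain ⟨r, hr, hr'⟩ := x
      obtain ⟨s, hs, hs'⟩ := y
      simp only [Prod.mk.injEq] at hxy
      refine Subtype.ext (Matrix.ext fun i j => ?_)
      obtain ⟨e00, e01, e10⟩ := hxy
      fin_cases i <;> fin_cases j
      · exact e00
      · exact e01
      · exact e10
      · simp only [Matrix.trace, Matrix.diag, Fin.sum_univ_two] at hr hs
        have := hr.trans hs.symm
        rw [e00] at this
        exact add_left_cancel this
    replace hcount := hcount.resolve_right fun h => by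
      obtain ⟨g, r, hgr⟩ := h.1
      have := LinearMap.congr_fun (htriv g) r
      rw [hm, LinearMap.zero_apply, sub_eq_zero] at this
      exact hgr this
    rw [hM] at hcount
    have : q ^ 4 ≤ 2 * q ^ 3 := hcount.trans (by nlinarith)
    have : q ≤ 2 := Nat.le_of_mul_le_mul_right (by rw [← pow_succ' q 3]; exact this)
      (pow_pos (by omega : 0 < q) 3)
    omega
  push Not at htriv
  obtain ⟨g₀, hg₀⟩ := htriv
  have h4 : Module.finrank F M₂ = 4 := by rw [Module.finrank_matrix, Module.finrank_self]; simp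
  have hle : ∀ g h, LinearMap.range (m h) ≤ LinearMap.ker (m g) := by
    rintro g h _ ⟨r, rfl⟩
    show m g (m h r) = 0
    rw [hm g, hm h, h2, sub_self]
  -- every nontrivial automorphism has a two-dimensional fixed space, equal to its image
  have hdim : ∀ g, m g ≠ 0 → Module.finrank F (LinearMap.ker (m g)) = 2 := by
    intro g hg
    have hrn := LinearMap.finrank_range_add_finrank_ker (m g)
    rw [h4] at hrn
    have h1 := Submodule.finrank_mono (hle g g)
    have h0 : 0 < Module.finrank F (LinearMap.range (m g)) := by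
      rw [Nat.pos_iff_ne_zero, Ne, Submodule.finrank_eq_zero, LinearMap.range_eq_bot]; exact hg
    by_contra hne
    have hr1 : Module.finrank F (LinearMap.range (m g)) = 1 := by omega
    obtain ⟨⟨x, hxr⟩, hx0, hx⟩ := finrank_eq_one_iff'.1 hr1
    replace hx0 : x ≠ 0 := fun e => hx0 (Subtype.ext e)
    have hline : ∀ r, ∃ a : F, m g r = a • x := fun r => by
      obtain ⟨a, ha⟩ := hx ⟨m g r, r, rfl⟩
      exact ⟨a, (congrArg Subtype.val ha).symm⟩
    obtain ⟨r₁, hr₁⟩ := hxr
    have hxfix : θ g x = x := by rw [← hr₁, hm, h2]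
    have hθ : ∀ r, θ g r = r + m g r := fun r => by rw [hm]; abel
    have had : ∀ y, ∃ a : F, x * y + y * x = a • x := by
      intro y
      obtain ⟨b, hb⟩ := hline y
      have hfix : m g (y - b • r₁) = 0 := by rw [map_sub, map_smul, hr₁, hb, sub_self]
      have hhx : ∀ h, m g h = 0 → (∃ a : F, h * x = a • x) ∧ ∃ a : F, x * h = a • x := by
        intro h hh
        have hh' : θ g h = h := by rw [hθ, hh, add_zero]
        constructor
        · obtain ⟨a, ha⟩ := hline (h * r₁)
          refine ⟨a, ?_⟩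
          rw [← ha, hm, map_mul, hh', hθ r₁, hr₁, mul_add]
          abel
        · obtain ⟨a, ha⟩ := hline (r₁ * h)
          refine ⟨a, ?_⟩
          rw [← ha, hm, map_mul, hh', hθ r₁, hr₁, add_mul]
          abel
      obtain ⟨⟨a₁, ha₁⟩, a₂, ha₂⟩ := hhx _ hfix
      obtain ⟨⟨a₃, ha₃⟩, -⟩ := hhx x (by rw [hm, hxfix, sub_self])
      obtain ⟨a₄, ha₄⟩ := hline (r₁ * r₁)
      have hsq : x * r₁ + r₁ * x = (a₄ - a₃) • x := by
        rw [sub_smul, ← ha₄, ← ha₃, hm, map_mul, hθ r₁, hr₁]
        noncomm_ring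
      refine ⟨a₁ + a₂ + b * (a₄ - a₃), ?_⟩
      rw [add_smul, add_smul, ← ha₁, ← ha₂, mul_smul, ← hsq, sub_mul, mul_sub, smul_mul_assoc,
        mul_smul_comm, smul_add]
      abel
    obtain ⟨a, ha⟩ := had (single 0 0 1)
    obtain ⟨b, hb⟩ := had (single 0 1 1)
    obtain ⟨c, hc⟩ := had (single 1 0 1)
    have a00 := congrFun (congrFun ha 0) 0
    have a01 := congrFun (congrFun ha 0) 1
    have a10 := congrFun (congrFun ha 1) 0
    have a11 := congrFun (congrFun ha 1) 1
    have b00 := congrFun (congrFun hb 0) 0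
    have b01 := congrFun (congrFun hb 0) 1
    have b11 := congrFun (congrFun hb 1) 1
    have c00 := congrFun (congrFun hc 0) 0
    simp [Matrix.mul_apply, Fin.sum_univ_two, Matrix.single, CharTwo.add_self_eq_zero] at a00 a01 a10 a11 b00 b01 b11 c00
    have hoff : x 0 1 = 0 ∧ x 1 0 = 0 := by
      rcases a00 with h | h
      · subst h; simp at a01 a10; exact ⟨a01, a10⟩
      · rw [h, mul_zero] at b00 c00; exact ⟨c00, b00⟩
    have hdiag : x 0 0 = x 1 1 := by
      rw [hoff.1, mul_zero] at b01
      exact CharTwo.add_eq_zero.1 b01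
    have hxs : x = x 0 0 • 1 := by
      refine Matrix.ext fun i j => ?_
      fin_cases i <;> fin_cases j <;> simp [hoff.1, hoff.2, hdiag]
    have hx00 : x 0 0 ≠ 0 := fun e => hx0 (by rw [hxs, e, zero_smul])
    have hker : LinearMap.ker (m g) ≤ Submodule.span F {(1 : M₂)} := by
      intro h hh
      rw [Submodule.mem_span_singleton]
      obtain ⟨d, hd⟩ := hline (h * r₁)
      refine ⟨d, ?_⟩
      have hh' : θ g h = h := sub_eq_zero.1 hh
      rw [hm, map_mul, hh', hθ r₁, hr₁, mul_add, add_sub_cancel_left, hxs, mul_smul_comm, mul_one,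
        smul_comm] at hd
      exact (smul_right_injective _ hx00 hd).symm
    have := Submodule.finrank_mono hker
    rw [finrank_span_singleton one_ne_zero] at this
    omega
  set C₀ := LinearMap.ker (m g₀) with hC₀
  have heq : ∀ g, m g ≠ 0 → LinearMap.range (m g) = LinearMap.ker (m g) := fun g hg =>
    Submodule.eq_of_le_of_finrank_eq (hle g g) (by
      have := LinearMap.finrank_range_add_finrank_ker (m g)
      rw [h4, hdim g hg] at this
      rw [hdim g hg]; omega)
  have hall : ∀ g, ∀ c ∈ C₀, m g c = 0 := fun g c hc => by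
    rw [hC₀, ← heq g₀ hg₀] at hc
    exact hle g g₀ hc
  have htr0 : ∀ c ∈ C₀, c.trace = 0 := fun c hc => by
    rw [hC₀, ← heq g₀ hg₀] at hc
    obtain ⟨r, rfl⟩ := hc
    exact htrm g₀ r
  have hvals : ∀ g r, m g r ∈ C₀ := fun g r => hle g₀ g ⟨r, rfl⟩
  have h1C : (1 : M₂) ∈ C₀ := hone g₀
  obtain ⟨r₀, hr₀⟩ : (1 : M₂) ∈ LinearMap.range (m g₀) := by rw [heq g₀ hg₀]; exact h1C
  -- a second basis vector of `C₀`, of square zero
  obtain ⟨c₁, hc₁, hc₁'⟩ : ∃ c ∈ C₀, c ∉ Submodule.span F {(1 : M₂)} := by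
    by_contra hc
    push Not at hc
    have := Submodule.finrank_mono (show C₀ ≤ Submodule.span F {(1 : M₂)} from hc)
    rw [hdim g₀ hg₀, finrank_span_singleton one_ne_zero] at this
    omega
  obtain ⟨s, hs⟩ := isSquare_of_charTwo' c₁.det
  set c := c₁ + s • (1 : M₂) with hcdef
  have hcC : c ∈ C₀ := add_mem hc₁ (Submodule.smul_mem _ _ h1C)
  have hc1 : c ∉ Submodule.span F {(1 : M₂)} := fun h => hc₁' (by
    have := sub_mem h (Submodule.smul_mem _ s (Submodule.mem_span_singleton_self (1 : M₂)))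
    rwa [hcdef, add_sub_cancel_right] at this)
  have hcc : c * c = 0 := by
    have e := sq_eq_trace c₁
    rw [htr0 c₁ hc₁, zero_smul, zero_add] at e
    simp only [hcdef, add_mul, mul_add, e, hs, smul_mul_assoc, mul_smul_comm, one_mul, mul_one,
      smul_smul]
    ext i j
    simp only [Matrix.add_apply, Matrix.smul_apply, smul_eq_mul, Matrix.zero_apply]
    linear_combination ((s * s) * (1 : M₂) i j + s * c₁ i j) * h2'
  have hC₀span : ∀ x ∈ C₀, ∃ a b : F, x = a • 1 + b • c := by
    intro x hx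
    have hind : LinearIndependent F ![(1 : M₂), c] := by
      rw [LinearIndependent.pair_iff' one_ne_zero]
      exact fun a ha => hc1 (Submodule.mem_span_singleton.2 ⟨a, ha⟩)
    have e : Submodule.span F (Set.range ![(1 : M₂), c]) = C₀ := by
      refine Submodule.eq_of_le_of_finrank_eq (Submodule.span_le.2 ?_) ?_
      · rintro _ ⟨i, rfl⟩
        fin_cases i
        · exact h1C
        · exact hcC
      · rw [finrank_span_eq_card hind, hdim g₀ hg₀, Fintype.card_fin]
    rw [← e] at hx
    obtain ⟨f, hf⟩ := (Submodule.mem_span_range_iff_exists_fun F).1 hx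
    exact ⟨f 0, f 1, by rw [← hf, Fin.sum_univ_two]; rfl⟩
  -- `1, c, r₀, c r₀` is a basis
  have hθr₀ : θ g₀ r₀ = r₀ + 1 := by rw [← hr₀, hm]; abel
  have hcfix : ∀ g, θ g c = c := fun g => sub_eq_zero.1 (hall g c hcC)
  have hmc : ∀ g r, m g (c * r) = c * m g r := fun g r => by
    rw [hm, map_mul, hcfix, hm, mul_sub]
  have hbasis : ∀ r, ∃ a b e f : F, r = a • 1 + b • c + e • r₀ + f • (c * r₀) := by
    intro r
    obtain ⟨e, f, hef⟩ := hC₀span _ (hvals g₀ r)
    have h0 : r - e • r₀ - f • (c * r₀) ∈ C₀ := by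
      show m g₀ _ = 0
      rw [map_sub, map_sub, map_smul, map_smul, hmc, hr₀, mul_one, hef]
      abel
    obtain ⟨a, b, hab⟩ := hC₀span _ h0
    exact ⟨a, b, e, f, by rw [← hab]; abel⟩
  obtain ⟨u, hu⟩ := mul_add_mul_eq c r₀
  rw [htr0 c hcC, zero_smul, add_zero] at hu
  -- the quadratic equation for `θ g r₀ - r₀`
  have hsq : ∀ g, m g r₀ * r₀ + r₀ * m g r₀ + m g r₀ * m g r₀ = r₀.trace • m g r₀ := by
    intro g
    have hθ : θ g r₀ = r₀ + m g r₀ := by rw [hm]; abel
    have h := congrArg (θ g) (sq_eq_trace r₀)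
    rw [map_mul, map_add, hsmul, hsmul, map_one, hθ, add_mul, mul_add, mul_add, smul_add,
      sq_eq_trace r₀] at h
    calc m g r₀ * r₀ + r₀ * m g r₀ + m g r₀ * m g r₀
        = (r₀.trace • r₀ + r₀.det • 1 + r₀ * m g r₀ + (m g r₀ * r₀ + m g r₀ * m g r₀)) -
            (r₀.trace • r₀ + r₀.det • 1) := by abel
      _ = _ := by rw [h]; abel
  have ht : r₀.trace = 1 := by
    have h := hsq g₀
    rw [hr₀, mul_one, one_mul] at h
    have h00 := congrFun (congrFun h 0) 0
    simp [CharTwo.add_self_eq_zero] at h00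
    exact h00.symm
  rw [ht, one_smul] at hu
  have hu0 : u ≠ 0 := by
    intro hu0
    rw [hu0, zero_smul] at hu
    have hcrc : c * r₀ * c = 0 := by
      have h := congrArg (fun z => c * z) hu
      simp only [mul_add, mul_zero, ← mul_assoc, hcc, zero_mul, zero_add, add_zero] at h
      exact h
    have hzero : ∀ r, c * r * c = 0 := by
      intro r
      obtain ⟨a, b, e, f, rfl⟩ := hbasis r
      simp [mul_add, add_mul, smul_mul_assoc, mul_smul_comm, hcc, hcrc, ← mul_assoc]
    refine hc1 ?_
    have : c = 0 := Matrix.ext fun i j => by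
      have h := congrFun (congrFun (hzero (single j i 1)) i) j
      fin_cases i <;> fin_cases j <;>
        simpa [Matrix.mul_apply, Matrix.single, Fin.sum_univ_two] using h
    rw [this]; exact zero_mem _
  -- each automorphism is determined by one scalar
  have hpar : ∀ g, ∃ a : F, m g r₀ = a • 1 + (u⁻¹ * (a * a + a)) • c := by
    intro g
    obtain ⟨a, b, hab⟩ := hC₀span _ (hvals g r₀)
    refine ⟨a, ?_⟩
    suffices b * u = a * a + a by rw [hab, ← this, mul_comm b u, inv_mul_cancel_left₀ hu0]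
    have h := hsq g
    rw [hab, ht, one_smul] at h
    simp only [add_mul, mul_add, smul_mul_assoc, mul_smul_comm, one_mul, mul_one, hcc, smul_zero,
      add_zero, smul_smul] at h
    have key : (b * u + (a * a + a)) • (1 : M₂) = 0 := by
      rw [add_smul, ← smul_smul, ← hu]
      ext i j
      have h' := congrFun (congrFun h i) j
      simp only [Matrix.add_apply, Matrix.smul_apply, smul_eq_mul, Matrix.zero_apply, mul_add] at h' ⊢
      linear_combination h' + (a * (1 : M₂) i j + b * c i j - a * r₀ i j - a * b * c i j) * h2'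
    have := congrFun (congrFun key 0) 0
    simp at this
    exact CharTwo.add_eq_zero.1 this
  have h1 : (Set.range fun g => (θ g : M₂ → M₂)).ncard ≤ q := by
    choose a ha using hpar
    rw [hq, ← Nat.card_coe_set_eq]
    refine Nat.card_le_card_of_injective (fun x => a x.2.choose) ?_
    rintro ⟨x, hx⟩ ⟨y, hy⟩ he
    have key : m hx.choose r₀ = m hy.choose r₀ := by rw [ha, ha]; simp only at he; rw [he]
    refine Subtype.ext ?_
    show x = y
    rw [← hx.choose_spec, ← hy.choose_spec]
    funext r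
    show θ hx.choose r = θ hy.choose r
    obtain ⟨a', b, e, f, rfl⟩ := hbasis r
    simp only [map_add, hsmul, map_mul, map_one, hcfix]
    simp only [hm, sub_left_inj] at key
    rw [key]
  have h3 : Nat.card {r : M₂ // ∀ g, θ g r = r} ≤ q ^ 2 := by
    have : Nat.card C₀ = q ^ 2 := by rw [Module.natCard_eq_pow_finrank (K := F), hdim g₀ hg₀]
    rw [← this]
    refine Nat.card_le_card_of_injective (fun r => (⟨r.1, sub_eq_zero.2 (r.2 g₀)⟩ : C₀)) ?_
    intro x y he
    exact Subtype.ext (congrArg (fun z : C₀ => (z : M₂)) he)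
  replace hcount : Nat.card M₂ ≤ 2 * (Set.range fun g => (θ g : M₂ → M₂)).ncard *
      Nat.card {r : M₂ // ∀ g, θ g r = r} := hcount.elim
    (fun h => h.trans (Nat.mul_le_mul le_rfl (Nat.card_le_card_of_injective
      (fun r => (⟨r.1, r.2.2⟩ : {r : M₂ // ∀ g, θ g r = r}))
      fun x y he => Subtype.ext (congrArg (fun z : {r : M₂ // ∀ g, θ g r = r} => z.1) he))))
    And.right
  rw [hM] at hcount
  have h5 : q ^ 4 ≤ 2 * q * q ^ 2 := hcount.trans (Nat.mul_le_mul (Nat.mul_le_mul le_rfl h1) h3)
  have : q ≤ 2 := Nat.le_of_mul_le_mul_right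
    (by rw [← pow_succ' q 3]; rw [mul_assoc, ← pow_succ' q 2] at h5; exact h5)
    (pow_pos (by omega : 0 < q) 3)
  omega

end CfsgLib.FFModules.PGV
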