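import Cfsg.Agent.Lib.FFModules.PGVBasic
import Mathlib.Algebra.CharP.Lemmas
import Mathlib.Algebra.Group.Pi.Lemmas
import Mathlib.Data.ZMod.Basic
import Mathlib.Algebra.CharP.Algebra
import Mathlib.Tactic.NoncommRing
import Mathlib.Algebra.Field.ZMod
import Mathlib.RingTheory.SimpleRing.Field

/-!
Odd characteristic: cyclically permuted commuting copies of a perfect group.
-/

set_option autoImplicit false

namespace CfsgLib.FFModules.PGV

variable {p : ℕ} [hp : Fact p.Prime] {V : Type*} [AddCommGroup V] [Module (ZMod p) V]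

theorem pTorsion (v : V) : p • v = 0 := by
  rw [← Nat.cast_smul_eq_nsmul (ZMod p), ZMod.natCast_self, zero_smul]

theorem end_pTorsion (f : Module.End (ZMod p) V) : p • f = 0 :=
  LinearMap.ext fun v => by rw [LinearMap.smul_apply, pTorsion]; rfl

/-- In odd characteristic a quadratic element commutes with every `p`-th power of an element which
commutes with its two conjugates. -/
theorem commute_pow_of_quadratic (hodd : p ≠ 2) {β y y₁ y₂ : Module.End (ZMod p) V}
    (hβ : (β - 1) * (β - 1) = 0) (h₁ : β * y = y₁ * β) (h₂ : y * β = β * y₂)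
    (hc₁ : Commute y y₁) (hc₂ : Commute y y₂) : Commute β (y ^ p) := by
  set n := β - 1 with hn
  have hb : β = 1 + n := by rw [hn]; abel
  set δ := n * y - y * n with hδ
  have hinv : (1 + n) * (1 - n) = 1 := by
    calc (1 + n) * (1 - n) = 1 - n * n := by noncomm_ring
      _ = 1 := by rw [hβ, sub_zero]
  have hinv' : (1 - n) * (1 + n) = 1 := by
    calc (1 - n) * (1 + n) = 1 - n * n := by noncomm_ring
      _ = 1 := by rw [hβ, sub_zero]
  have e₁ : y₁ = y + δ - n * y * n := by
    calc y₁ = y₁ * ((1 + n) * (1 - n)) := by rw [hinv, mul_one]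
      _ = (1 + n) * y * (1 - n) := by rw [← mul_assoc, ← hb, ← h₁]
      _ = _ := by rw [hδ]; noncomm_ring
  have e₂ : y₂ = y - δ - n * y * n := by
    calc y₂ = ((1 - n) * (1 + n)) * y₂ := by rw [hinv', one_mul]
      _ = (1 - n) * (y * (1 + n)) := by rw [mul_assoc, ← hb, ← h₂]
      _ = _ := by rw [hδ]; noncomm_ring
  have hyδ : Commute y δ := by
    have h := hc₁.sub_right hc₂
    rw [e₁, e₂] at h
    have h' : Commute y (δ + δ) := by
      rwa [show δ + δ = y + δ - n * y * n - (y - δ - n * y * n) by abel]
    have h3 : (2 : ℕ) • (y * δ - δ * y) = 0 := by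
      have := h'.eq
      rw [mul_add, add_mul] at this
      rw [two_nsmul, ← sub_eq_zero.2 this]
      abel
    have h4 : p • (y * δ - δ * y) = 0 := end_pTorsion _
    obtain ⟨q, hq⟩ : ∃ q, p = 2 * q + 1 := (hp.out.odd_of_ne_two hodd)
    have h5 : (2 * q + 1) • (y * δ - δ * y) = 0 := (congrArg (· • (y * δ - δ * y)) hq).symm.trans h4
    rw [add_nsmul, mul_comm 2 q, mul_nsmul', h3, nsmul_zero, zero_add, one_nsmul, sub_eq_zero] at h5
    exact h5
  have key : ∀ i : ℕ, n * y ^ (i + 1) = y ^ (i + 1) * n + (i + 1) • (y ^ i * δ) := by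
    intro i
    induction i with
    | zero => simp [hδ]
    | succ i ih =>
      calc n * y ^ (i + 1 + 1) = (n * y ^ (i + 1)) * y := by rw [pow_succ y (i + 1), mul_assoc]
        _ = y ^ (i + 1) * (y * n + δ) + (i + 1) • (y ^ (i + 1) * δ) := by
          rw [ih, add_mul, smul_mul_assoc, pow_succ y i, hδ, mul_assoc _ n]
          congr 1
          · congr 1; abel
          · rw [← hδ, mul_assoc, mul_assoc, hyδ.eq]
        _ = _ := by rw [mul_add, ← mul_assoc, ← pow_succ, add_assoc, ← succ_nsmul' , ]
  obtain ⟨i, hi⟩ : ∃ i, p = i + 1 := ⟨p - 1, by have := hp.out.pos; omega⟩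
  have h := key i
  rw [← hi, end_pTorsion, add_zero] at h
  rw [hb]
  exact (Commute.one_left _).add_left h

variable {H : Type*} [Group H] (τ : (ZMod p → H) →* Module.End (ZMod p) V)

/-- The `i`-th copy of `H`. -/
def copy (i : ZMod p) : H →* Module.End (ZMod p) V :=
  τ.comp (MonoidHom.mulSingle (fun _ => H) i)

theorem copy_apply (i : ZMod p) (k : H) : copy τ i k = τ (Pi.mulSingle i k) := rfl

theorem commute_copy {i j : ZMod p} (h : i ≠ j) (k l : H) : Commute (copy τ i k) (copy τ j l) := by
  refine Commute.map (funext fun m => ?_) τ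
  obtain rfl | hm := eq_or_ne m i <;> simp [*]

theorem const_mul_copy (i : ZMod p) (k l : H) :
    τ (fun _ => l) * copy τ i k = copy τ i (l * k * l⁻¹) * τ (fun _ => l) := by
  rw [copy_apply, copy_apply, ← map_mul, ← map_mul]
  congr 1
  funext j
  obtain rfl | hj := eq_or_ne j i <;> simp [*]

/-- If the diagonal fixes `(α - 1)M` pointwise, then, for odd `p`, the copies act trivially. -/
theorem trivial_odd [Group.IsPerfect H] [Finite V] (hodd : p ≠ 2) {M : Submodule (ZMod p) V}
    (α : Module.End (ZMod p) V) (hαp : α ^ p = 1)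
    (hα : ∀ i k, α * copy τ i k = copy τ (i + 1) k * α)
    (hM : ∀ i, Stable (copy τ i) M) (hMα : ∀ v ∈ M, α v ∈ M)
    (hL : ∀ k : H, ∀ v ∈ M, τ (fun _ => k) (α v - v) = α v - v) :
    ∀ k, ∀ v ∈ M, copy τ 0 k v = v := by
  have h3 : 3 ≤ p := by have := hp.out.two_le; omega
  have htwo : ∀ v : V, v + v = 0 → v = 0 := by
    intro v hv
    obtain ⟨q, hq⟩ : ∃ q, p = 2 * q + 1 := (hp.out.odd_of_ne_two hodd)
    have := pTorsion (p := p) v
    have h5 : (2 * q + 1) • v = 0 := (congrArg (· • v) hq).symm.trans this
    rw [add_nsmul, mul_comm 2 q, mul_nsmul', two_nsmul, hv, nsmul_zero, zero_add, one_nsmul] at h5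
    exact h5
  have hne : ∀ m : ℕ, 0 < m → m < p → ∀ i : ZMod p, i ≠ i + (m : ZMod p) := by
    intro m h0 hlt i h
    have h' : (m : ZMod p) = 0 := by simpa using h.symm
    rw [ZMod.natCast_eq_zero_iff] at h'
    have := Nat.le_of_dvd h0 h'
    omega
  -- the key step
  have key : ∀ w ∈ M, (∀ k, τ (fun _ => k) w = w) →
      (∀ i k, copy τ i k (α w - w) = α w - w) → ∀ i k, copy τ i k w = w := by
    intro w hw hDw hnw i
    let C : ZMod p → H → H → Module.End (ZMod p) V := fun j k l =>
      copy τ j (k * l) - copy τ j (l * k)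
    have hclass : ∀ j k l, copy τ (j + 1) k w - copy τ j k w =
        copy τ (j + 1) (l * k * l⁻¹) w - copy τ j (l * k * l⁻¹) w := by
      intro j k l
      have hD : ∀ m x, τ (fun _ => l) (copy τ m x w) = copy τ m (l * x * l⁻¹) w := by
        intro m x
        rw [← Module.End.mul_apply, const_mul_copy, Module.End.mul_apply, hDw]
      have hf : ∀ x, α (copy τ j x w) - copy τ j x w =
          copy τ (j + 1) x w - copy τ j x w + (α w - w) := by
        intro x
        have h1 := hnw (j + 1) x
        rw [map_sub, sub_eq_iff_eq_add] at h1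
        rw [show α (copy τ j x w) = copy τ (j + 1) x (α w) from LinearMap.congr_fun (hα j x) w, h1]
        abel
      have h1 := hL l _ (hM j k w hw)
      have hnw' := hL l w hw
      rw [hf, map_add, map_sub, hD, hD, hnw', add_left_inj] at h1
      exact h1.symm
    have hC1 : ∀ j k l, C (j + 1) k l w = C j k l w := by
      intro j k l
      have h1 := hclass j (k * l) l
      rw [show l * (k * l) * l⁻¹ = l * k by group, sub_eq_sub_iff_sub_eq_sub] at h1
      simpa [C] using h1
    have hC : ∀ j k l, C j k l w = C i k l w := by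
      intro j k l
      have : ∀ m : ℕ, C (i + (m : ZMod p)) k l w = C i k l w := by
        intro m
        induction m with
        | zero => simp
        | succ m ih => rw [Nat.cast_succ, ← add_assoc, hC1, ih]
      obtain ⟨m, hm⟩ := ZMod.natCast_zmod_surjective (j - i)
      have := this m
      rwa [hm, add_sub_cancel] at this
    have hcomm : ∀ j j' k l m n, j ≠ j' → ∀ v,
        C j k l (C j' m n v) = C j' m n (C j k l v) := fun j j' k l m n hj v =>
      LinearMap.congr_fun ((((commute_copy τ hj _ _).sub_left (commute_copy τ hj _ _)).sub_right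
        ((commute_copy τ hj _ _).sub_left (commute_copy τ hj _ _)))).eq v
    -- the additive commutators commute at `w`
    have hpair : ∀ j j' k l m n, j ≠ j' →
        C j k l (C j m n w) = C j' m n (C j' k l w) := by
      intro j j' k l m n hj
      rw [hC j m n, ← hC j' m n, hcomm j j' k l m n hj, hC j k l, ← hC j' k l]
    have hcd : ∀ k l m n, C i k l (C i m n w) = C i m n (C i k l w) := by
      intro k l m n
      have h1 : i ≠ i + 1 := by simpa using hne 1 one_pos (by omega) i
      have h2 : i ≠ i + 2 := by simpa using hne 2 two_pos (by omega) i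
      have h12 : i + 1 ≠ i + 2 := fun e => h1 (by
        have := congrArg (fun x => x - 1) e
        ring_nf at this
        simpa [add_comm] using this)
      rw [hpair i (i + 2) k l m n h2, ← hpair (i + 1) (i + 2) k l m n h12,
        hpair (i + 1) i k l m n h1.symm]
    let S : Submodule (ZMod p) V := Submodule.span _ (Set.range fun k => copy τ i k w)
    have hS : Stable (copy τ i) S := by
      intro k
      refine Submodule.span_le (p := S.comap (copy τ i k)) |>.2 ?_
      rintro _ ⟨z, rfl⟩
      refine Submodule.subset_span ⟨k * z, ?_⟩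
      simp
    have hcdS : ∀ k l m n, ∀ v ∈ S, C i k l (C i m n v) = C i m n (C i k l v) := by
      intro k l m n
      refine Submodule.span_le (p := LinearMap.eqLocus (C i k l * C i m n) (C i m n * C i k l)) |>.2 ?_
      rintro _ ⟨z, rfl⟩
      set g : ZMod p → H := Pi.mulSingle i z * fun _ => z⁻¹ with hg
      have hz : copy τ i z w = τ g w := by
        rw [hg, map_mul, Module.End.mul_apply, hDw, copy_apply]
      have hcg : ∀ x, Commute (copy τ i x) (τ g) := by
        intro x
        refine Commute.map (funext fun j => ?_) τ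
        obtain rfl | hj := eq_or_ne j i <;> simp [g, *]
      show C i k l (C i m n (copy τ i z w)) = C i m n (C i k l (copy τ i z w))
      have hcC : ∀ x y v, C i x y (τ g v) = τ g (C i x y v) := fun x y v =>
        LinearMap.congr_fun ((hcg _).sub_left (hcg _)).eq v
      rw [hz, hcC, hcC, hcC, hcC, hcd]
    intro k
    exact trivial_of_commutators_commute (copy τ i) htwo S hS hcdS k w
      (Submodule.subset_span ⟨1, by simp⟩)
  -- descend along the powers of `α - 1`
  set n := α - 1 with hn
  have hnp : n ^ p = 0 := by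
    rw [hn]
    rcases subsingleton_or_nontrivial V with h | h
    · exact LinearMap.ext fun v => Subsingleton.elim _ _
    · have : Nontrivial (Module.End (ZMod p) V) := by
        obtain ⟨v, hv⟩ := exists_ne (0 : V)
        exact ⟨⟨1, 0, fun e => hv (LinearMap.congr_fun e v)⟩⟩
      have : CharP (Module.End (ZMod p) V) p := charP_of_injective_algebraMap
        (RingHom.injective (algebraMap (ZMod p) (Module.End (ZMod p) V))) p
      rw [sub_pow_char_of_commute p (Commute.one_right α), hαp, one_pow, sub_self]
  have hnM : ∀ j, ∀ v ∈ M, (n ^ j) v ∈ M := by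
    intro j
    induction j with
    | zero => exact fun v hv => by simpa using hv
    | succ j ih =>
      intro v hv
      rw [pow_succ', Module.End.mul_apply]
      exact sub_mem (hMα _ (ih v hv)) (ih v hv)
  have desc : ∀ j, ∀ v ∈ M, ∀ i k, copy τ i k ((n ^ (p - j)) v) = (n ^ (p - j)) v ∨ p ≤ j := by
    intro j
    induction j with
    | zero => exact fun v hv i k => Or.inl (by simp [hnp])
    | succ j ih =>
      intro v hv i k
      by_cases hj : p ≤ j + 1
      · exact Or.inr hj
      obtain ⟨e, he⟩ : ∃ e, p - (j + 1) = e + 1 := ⟨p - (j + 1) - 1, by omega⟩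
      refine Or.inl (key _ (hnM _ v hv) (fun l => ?_) (fun i' k' => ?_) i k)
      · rw [he, pow_succ', Module.End.mul_apply]
        exact hL l _ (hnM e v hv)
      · have h := (ih v hv i' k').resolve_right (by omega)
        rw [show p - j = (p - (j + 1)) + 1 by omega, pow_succ', Module.End.mul_apply] at h
        exact h
  have h1 : ∀ v ∈ M, ∀ i k, copy τ i k (α v - v) = α v - v := fun v hv i k => by
    have := (desc (p - 1) v hv i k).resolve_right (by omega)
    rw [show p - (p - 1) = 1 by omega, pow_one] at this
    exact this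
  exact trivial_of_fix_image (copy τ 0) (copy τ (0 + 1)) α (hM 0) (hα 0)
    (commute_copy τ (by simpa using hne 1 one_pos (by omega) 0)) fun v hv k =>
      ⟨h1 v hv 0 k, h1 v hv _ k⟩

end CfsgLib.FFModules.PGV
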