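import Cfsg.Agent.Lib.ThompsonJ.Replacement
import Mathlib.Algebra.Field.ZMod
import Mathlib.GroupTheory.SemidirectProduct
import Mathlib.RepresentationTheory.Basic

/-!
Timmesfeld's replacement for a best offender given by a linear representation.
-/

set_option autoImplicit false

namespace CfsgLib.FFModules.PGV

open scoped commutatorElement

variable {p : ℕ} [hp : Fact p.Prime] {V : Type*} [AddCommGroup V] [Module (ZMod p) V]
variable {Q : Type*} [Group Q] (ρ : Q →* Module.End (ZMod p) V)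

/-- The action on the multiplicative copy of the module. -/
def mulAction' : Q →* MulAut (Multiplicative V) where
  toFun a :=
    { toFun := fun v => Multiplicative.ofAdd (ρ a v.toAdd)
      invFun := fun v => Multiplicative.ofAdd (ρ a⁻¹ v.toAdd)
      left_inv := fun v => by
        show Multiplicative.ofAdd (ρ a⁻¹ (ρ a v.toAdd)) = v
        rw [← Module.End.mul_apply, ← map_mul, inv_mul_cancel, map_one]; rfl
      right_inv := fun v => by
        show Multiplicative.ofAdd (ρ a (ρ a⁻¹ v.toAdd)) = v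
        rw [← Module.End.mul_apply, ← map_mul, mul_inv_cancel, map_one]; rfl
      map_mul' := fun v w => by rw [toAdd_mul, map_add, ofAdd_add] }
  map_one' := MulEquiv.ext fun v => by
    show Multiplicative.ofAdd (ρ 1 v.toAdd) = v
    rw [map_one]; rfl
  map_mul' a b := MulEquiv.ext fun v => by
    show Multiplicative.ofAdd (ρ (a * b) v.toAdd) = Multiplicative.ofAdd (ρ a (ρ b v.toAdd))
    rw [map_mul]; rfl

theorem exists_quadratic_offender_aux [Finite V] [Finite Q] (hc : ∀ a b : Q, a * b = b * a)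
    (hexp : ∀ a : Q, a ^ p = 1)
    (hbest : ∀ C : Subgroup Q, Nat.card C * Nat.card {v : V // ∀ c ∈ C, ρ c v = v} ≤
      Nat.card Q * Nat.card {v : V // ∀ a, ρ a v = v})
    (hne : ∃ a, ρ a ≠ 1) :
    ∃ B : Subgroup Q, (∀ b ∈ B, ∀ a v, ρ b (ρ a v - v) = ρ a v - v) ∧ (∃ b ∈ B, ρ b ≠ 1) ∧
      ∀ C ≤ B, Nat.card C * Nat.card {v : V // ∀ c ∈ C, ρ c v = v} ≤
        Nat.card B * Nat.card {v : V // ∀ b ∈ B, ρ b v = v} := by
  let X := Multiplicative V ⋊[mulAction' ρ] Q
  have : Finite X := Finite.of_equiv (Multiplicative V × Q) SemidirectProduct.equivProd.symm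
  let iV : Multiplicative V →* X := SemidirectProduct.inl
  let iQ : Q →* X := SemidirectProduct.inr
  have hconj : ∀ a v, iQ a * iV v * (iQ a)⁻¹ = iV (Multiplicative.ofAdd (ρ a v.toAdd)) := fun a v => by
    rw [← map_inv]; exact (SemidirectProduct.inl_aut a v).symm
  set V' := iV.range with hV'
  set A' := iQ.range with hA'
  have hVel : Cfsg.IsElementaryAbelian p V' := by
    refine ⟨⟨⟨fun ⟨x, a, ha⟩ ⟨y, b, hb⟩ => Subtype.ext ?_⟩⟩, fun x ⟨a, ha⟩ => ?_⟩
    · show x * y = y * x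
      rw [← ha, ← hb, ← map_mul, ← map_mul, mul_comm]
    · rw [← ha, ← map_pow, ← ofAdd_toAdd a, ← ofAdd_nsmul, ← Nat.cast_smul_eq_nsmul (ZMod p),
        ZMod.natCast_self, zero_smul, ofAdd_zero, map_one]
  have hmem : ∀ (a : Q) (v : Multiplicative V), (iV v ∈ Subgroup.centralizer {iQ a} ↔
      ρ a v.toAdd = v.toAdd) := by
    intro a v
    rw [Subgroup.mem_centralizer_iff]
    simp only [Set.mem_singleton_iff, forall_eq]
    rw [← mul_inv_eq_iff_eq_mul, hconj]
    constructor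
    · intro h; exact congrArg Multiplicative.toAdd (SemidirectProduct.inl_injective h)
    · intro h; rw [h]; rfl
  have hfix : ∀ C : Subgroup Q, Nat.card ↥(V' ⊓ Subgroup.centralizer (C.map iQ : Set X)) =
      Nat.card {v : V // ∀ c ∈ C, ρ c v = v} := by
    intro C
    symm
    refine Nat.card_congr (Equiv.ofBijective (fun v => ⟨iV (Multiplicative.ofAdd v.1),
      ⟨_, rfl⟩, ?_⟩) ⟨fun v w h => ?_, ?_⟩)
    · rintro _ ⟨c, hc, rfl⟩
      exact (Subgroup.mem_centralizer_iff.1 ((hmem c _).2 (v.2 c hc))) _ rfl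
    · exact Subtype.ext (Multiplicative.ofAdd.injective
        (SemidirectProduct.inl_injective (congrArg Subtype.val h)))
    · rintro ⟨_, ⟨v, rfl⟩, hv⟩
      refine ⟨⟨v.toAdd, fun c hc => ?_⟩, rfl⟩
      refine (hmem c v).1 (Subgroup.mem_centralizer_iff.2 ?_)
      rintro _ rfl
      exact hv _ ⟨c, hc, rfl⟩
  have hcard : ∀ C : Subgroup Q, Nat.card (C.map iQ) = Nat.card C := fun C =>
    (Nat.card_congr (C.equivMapOfInjective iQ SemidirectProduct.inr_injective).toEquiv).symm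
  have hsub : ∀ B' : Subgroup X, B' ≤ A' → (B'.comap iQ).map iQ = B' := fun B' h =>
    Subgroup.map_comap_eq_self h
  have hAtop : A' = (⊤ : Subgroup Q).map iQ := MonoidHom.range_eq_map iQ
  have hfixtop : Nat.card {v : V // ∀ c ∈ (⊤ : Subgroup Q), ρ c v = v} =
      Nat.card {v : V // ∀ a, ρ a v = v} :=
    Nat.card_congr (Equiv.subtypeEquivRight fun v => by simp)
  have hoff : Cfsg.IsBestOffenderOn p V' A' := by
    refine ⟨fun B' hB' => ?_, ?_, fun a ⟨x, hx⟩ => ?_⟩
    · rw [← hsub B' hB', hcard, hfix, hAtop, hcard, hfix, Subgroup.card_top, hfixtop]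
      exact hbest _
    · rw [Subgroup.commutator_le]
      rintro _ ⟨x, rfl⟩ _ ⟨y, rfl⟩
      rw [← map_commutatorElement, commutatorElement_eq_one_iff_mul_comm.2 (hc x y), map_one]
      exact one_mem _
    · rw [← hx, ← map_pow, hexp, map_one]
      exact one_mem _
  have hAV : A' ≤ Subgroup.normalizer (V' : Set X) := by
    rw [hV', SemidirectProduct.range_inl_eq_ker_rightHom, Subgroup.normalizer_eq_top_iff.2 inferInstance]
    exact le_top
  obtain ⟨hB1, -, hB3⟩ := CfsgLib.ThompsonJ.timmesfeld_replacement hVel hAV hoff (le_refl V')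
  set B' := A' ⊓ Subgroup.centralizer ((⁅V', A'⁆ : Subgroup X) : Set X) with hB'
  set B := B'.comap iQ with hB
  refine ⟨B, fun b hb a v => ?_, ?_, fun C hC => ?_⟩
  · have h1 : iV (Multiplicative.ofAdd (v - ρ a v)) ∈ ⁅V', A'⁆ := by
      have : ⁅iV (Multiplicative.ofAdd v), iQ a⁆ ∈ ⁅V', A'⁆ :=
        Subgroup.commutator_mem_commutator ⟨_, rfl⟩ ⟨_, rfl⟩
      convert this using 1
      rw [commutatorElement_def, mul_assoc (iV _) (iQ a), mul_assoc (iV _), ← map_inv iV, hconj,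
        toAdd_inv, toAdd_ofAdd, map_neg, ← map_mul, ← ofAdd_add, sub_eq_add_neg]
    have h2 := (hmem b _).1 (Subgroup.mem_centralizer_iff.2 (by
      rintro _ rfl
      exact (Subgroup.mem_centralizer_iff.1 hb.2 _ h1).symm))
    rw [toAdd_ofAdd, map_sub] at h2
    rw [map_sub, ← neg_sub v, ← h2, neg_sub]
  · have hne' : ⁅V', A'⁆ ≠ ⊥ := by
      obtain ⟨a, ha⟩ := hne
      intro hbot
      rw [Subgroup.commutator_eq_bot_iff_le_centralizer] at hbot
      refine ha (LinearMap.ext fun v => (hmem a (Multiplicative.ofAdd v)).1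
        (Subgroup.mem_centralizer_iff.2 ?_))
      rintro _ rfl
      exact hbot ⟨_, rfl⟩ _ ⟨a, rfl⟩
    by_contra hall
    push Not at hall
    refine hB3 hne' (Subgroup.commutator_eq_bot_iff_le_centralizer.2 ?_)
    rintro _ ⟨v, rfl⟩ _ hx
    obtain ⟨x, rfl⟩ := hx.1
    exact Subgroup.mem_centralizer_iff.1 ((hmem x v).2 (by rw [hall x hx, Module.End.one_apply])) _ rfl
  · have h := hB1.1 (C.map iQ) (Subgroup.map_le_iff_le_comap.2 hC)
    rwa [hcard, hfix, ← hsub B' inf_le_left, ← hB, hcard, hfix] at h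

theorem exists_quadratic_offender [Finite V] (A : Subgroup Q) [Finite A]
    (hc : ∀ a ∈ A, ∀ b ∈ A, a * b = b * a) (hexp : ∀ a ∈ A, a ^ p = 1)
    (hbest : ∀ C ≤ A, Nat.card C * Nat.card {v : V // ∀ c ∈ C, ρ c v = v} ≤
      Nat.card A * Nat.card {v : V // ∀ a ∈ A, ρ a v = v})
    (hne : ∃ a ∈ A, ρ a ≠ 1) :
    ∃ B ≤ A, (∀ b ∈ B, ∀ a ∈ A, ∀ v, ρ b (ρ a v - v) = ρ a v - v) ∧ (∃ b ∈ B, ρ b ≠ 1) ∧
      ∀ C ≤ B, Nat.card C * Nat.card {v : V // ∀ c ∈ C, ρ c v = v} ≤
        Nat.card B * Nat.card {v : V // ∀ b ∈ B, ρ b v = v} := by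
  have hcard : ∀ C : Subgroup A, Nat.card (C.map A.subtype) = Nat.card C := fun C =>
    (Nat.card_congr (C.equivMapOfInjective A.subtype A.subtype_injective).toEquiv).symm
  have hfix : ∀ C : Subgroup A, Nat.card {v : V // ∀ c ∈ C.map A.subtype, ρ c v = v} =
      Nat.card {v : V // ∀ c ∈ C, ρ.comp A.subtype c v = v} := fun C =>
    Nat.card_congr (Equiv.subtypeEquivRight fun v =>
      ⟨fun h c hc => h c ⟨c, hc, rfl⟩, by rintro h _ ⟨c, hc, rfl⟩; exact h c hc⟩)
  obtain ⟨a, ha, hane⟩ := hne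
  have hA : Nat.card {v : V // ∀ a ∈ A, ρ a v = v} =
      Nat.card {v : V // ∀ a : A, ρ.comp A.subtype a v = v} :=
    Nat.card_congr (Equiv.subtypeEquivRight fun v => ⟨fun h c => h c c.2, fun h c hc => h ⟨c, hc⟩⟩)
  obtain ⟨B, h1, ⟨b, hb, hbne⟩, h3⟩ := exists_quadratic_offender_aux (ρ.comp A.subtype)
    (fun a b => Subtype.ext (hc a a.2 b b.2)) (fun a => Subtype.ext (by simpa using hexp a a.2))
    (fun C => by rw [← hfix, ← hA, ← hcard]; exact hbest _ (Subgroup.map_subtype_le C))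
    ⟨⟨a, ha⟩, hane⟩
  refine ⟨B.map A.subtype, Subgroup.map_subtype_le B, ?_, ⟨_, ⟨b, hb, rfl⟩, hbne⟩, fun C hC => ?_⟩
  · rintro _ ⟨b, hb, rfl⟩ a ha v
    exact h1 b hb ⟨a, ha⟩ v
  · have hC' := hC.trans (Subgroup.map_subtype_le B)
    have e : (C.subgroupOf A).map A.subtype = C := Subgroup.map_subgroupOf_eq_of_le hC'
    rw [← e, hcard, hfix, hcard, hfix]
    refine h3 _ fun c hc => ?_
    obtain ⟨b, hb, hbc⟩ := hC hc
    rwa [← Subtype.ext hbc]

end CfsgLib.FFModules.PGV
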