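import Cfsg.Agent.Lib.FFModules.PGVBasic
import Cfsg.Agent.Lib.FFModules.PGVMatrix
import Mathlib.RingTheory.SimpleModule.WedderburnArtin
import Mathlib.RingTheory.LittleWedderburn
import Mathlib.RingTheory.SimpleRing.Basic
import Mathlib.RingTheory.Artinian.Module
import Mathlib.GroupTheory.IndexNormal
import Mathlib.GroupTheory.SpecificGroups.Cyclic
import Mathlib.Algebra.Field.ZMod

/-!
Characteristic 2: two commuting copies of a perfect group interchanged by an involution, with a
quadratic group normalising both.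
-/

set_option autoImplicit false

namespace CfsgLib.FFModules.PGV

/-- A homomorphism from a perfect group into a group of order 6 is trivial. -/
theorem map_eq_one_of_card_six {H G : Type*} [Group H] [Group.IsPerfect H] [Group G]
    (hG : Nat.card G = 6) (f : H →* G) (k : H) : f k = 1 := by
  have : Finite G := Nat.finite_of_card_ne_zero (by omega)
  have : Fact (Nat.Prime 3) := ⟨Nat.prime_three⟩
  obtain ⟨x, hx⟩ := exists_prime_orderOf_dvd_card' (G := G) 3 (by omega)
  set N := Subgroup.zpowers x with hN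
  have hi : N.index = 2 := by
    have h := N.card_mul_index
    rw [Nat.card_zpowers, hx, hG] at h
    omega
  have := Subgroup.normal_of_index_eq_two hi
  have : Fact (Nat.Prime 2) := ⟨Nat.prime_two⟩
  have hcyc : IsCyclic (G ⧸ N) := isCyclic_of_prime_card (p := 2) hi
  have h1 : ∀ l, f l ∈ N := fun l =>
    (QuotientGroup.eq_one_iff (f l)).1 (map_eq_one_of_commute ((QuotientGroup.mk' N).comp f)
      (fun a b => (IsCyclic.commutative (α := G ⧸ N)).is_comm.comm _ _) l)
  refine map_eq_one_of_commute f (fun a b => ?_) k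
  obtain ⟨i, hi⟩ := h1 a
  obtain ⟨j, hj⟩ := h1 b
  rw [← hi, ← hj]
  exact ((Commute.refl x).zpow_zpow i j).eq

variable {V : Type*} [AddCommGroup V] [Module (ZMod 2) V]

theorem add_self_eq_zero' (v : V) : v + v = 0 := by
  rw [← two_nsmul, ← Nat.cast_smul_eq_nsmul (ZMod 2), ZMod.natCast_self, zero_smul]

theorem neg_eq_self' (v : V) : -v = v :=
  neg_eq_of_add_eq_zero_left (add_self_eq_zero' v)

variable {H : Type*} [Group H] [Group.IsPerfect H] [Finite V]

set_option maxHeartbeats 2000000 in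
theorem false_two (σ σ' : H →* Module.End (ZMod 2) V) (α : Module.End (ZMod 2) V) (hα2 : α * α = 1)
    (hα : ∀ k, α * σ k = σ' k * α) (hcomm : ∀ k l, Commute (σ k) (σ' l))
    (hne : ∃ k v, σ k v ≠ v)
    (hmin : ∀ S : Submodule (ZMod 2) V, Stable σ S → (∀ v ∈ S, α v ∈ S) → S ≠ ⊤ →
      ∀ k, ∀ v ∈ S, σ k v = v)
    (hL : ∀ k v, σ k (σ' k (α v - v)) = α v - v)
    {Γ : Type*} [Group Γ] (γ : Γ →* Module.End (ZMod 2) V) (hγα : ∀ g, Commute (γ g) α)
    (hγfix : ∀ g v, γ g (α v - v) = α v - v)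
    (hγσ : ∀ g k, ∃ k', γ g * σ k = σ k' * γ g)
    (hγ2 : ∀ g h v, γ g (γ h v - v) = γ h v - v)
    (hcount : Nat.card V ≤ 2 * (Set.range γ).ncard *
        Nat.card {v : V // α v = v ∧ ∀ g, γ g v = v} ∨
      (∃ g v, γ g v ≠ v) ∧ Nat.card V ≤ 2 * (Set.range γ).ncard *
        Nat.card {v : V // ∀ g, γ g v = v}) : False := by
  have hαα : ∀ v, α (α v) = v := fun v => LinearMap.congr_fun hα2 v
  have hασ : ∀ k v, α (σ k v) = σ' k (α v) := fun k v => LinearMap.congr_fun (hα k) v
  have hασ' : ∀ k v, α (σ' k v) = σ k (α v) := fun k v => by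
    have h := congrArg α (hασ k (α v))
    rw [hαα, hαα] at h
    exact h.symm
  have hσσ' : ∀ k l v, σ k (σ' l v) = σ' l (σ k v) := fun k l v => LinearMap.congr_fun (hcomm k l).eq v
  have hαn : ∀ v, α (α v - v) = α v - v := fun v => by
    rw [map_sub, hαα, ← neg_eq_self' (α v - v), neg_sub]
  -- a vector of `(α - 1)V` moved by `σ`
  obtain ⟨w₀, k₁, hmoved⟩ : ∃ v k, σ k (α v - v) ≠ α v - v := by
    by_contra hc
    push Not at hc
    obtain ⟨k, v, hkv⟩ := hne
    refine hkv (trivial_of_fix_image σ σ' α (M := ⊤) (fun _ _ _ => Submodule.mem_top) hα hcomm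
      (fun u _ l => ⟨hc u l, ?_⟩) k v Submodule.mem_top)
    have h := congrArg α (hc u l)
    rwa [hασ, hαn] at h
  set w := α w₀ - w₀ with hw
  have hαw : α w = w := hαn w₀
  have hσ'w : ∀ k, σ' k w = σ k⁻¹ w := fun k => by
    have h := congrArg (σ k⁻¹) (hL k w₀)
    rwa [inv_apply_apply] at h
  have hspan : Submodule.span (ZMod 2) (Set.range fun k => σ k w) = ⊤ := by
    set S := Submodule.span (ZMod 2) (Set.range fun k => σ k w)
    by_contra hne'
    refine hmoved (hmin S (fun l => ?_) ?_ hne' k₁ w (Submodule.subset_span ⟨1, by simp⟩))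
    · refine Submodule.span_le (p := S.comap (σ l)) |>.2 ?_
      rintro _ ⟨k, rfl⟩
      exact Submodule.subset_span ⟨l * k, by simp⟩
    · refine fun v hv => Submodule.span_le (p := S.comap α) |>.2 ?_ hv
      rintro _ ⟨k, rfl⟩
      refine Submodule.subset_span ⟨k⁻¹, ?_⟩
      show σ k⁻¹ w = α (σ k w)
      rw [hασ, hαw, hσ'w]
  -- the algebra spanned by `σ`
  set R := Algebra.adjoin (ZMod 2) (Set.range σ) with hR
  have hσR : ∀ k, σ k ∈ R := fun k => Algebra.subset_adjoin ⟨k, rfl⟩
  have hRσ' : ∀ r ∈ R, ∀ k v, r (σ' k v) = σ' k (r v) := by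
    intro r hr k v
    have h1 : R ≤ Subalgebra.centralizer (ZMod 2) (Set.range σ') := by
      refine Algebra.adjoin_le ?_
      rintro _ ⟨a, rfl⟩
      rintro _ ⟨b, rfl⟩
      exact (hcomm a b).symm.eq
    exact (LinearMap.congr_fun (h1 hr (σ' k) ⟨k, rfl⟩) v).symm
  have hext : ∀ r ∈ R, ∀ s ∈ R, r w = s w → r = s := by
    intro r hr s hs he
    refine LinearMap.ext_on_range hspan fun k => ?_
    have hk : σ k w = σ' k⁻¹ w := by rw [hσ'w, inv_inv]
    show r (σ k w) = s (σ k w)
    rw [hk, hRσ' r hr, hRσ' s hs, he]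
  have hsurj : ∀ v, ∃ r ∈ R, r w = v := by
    intro v
    have h : v ∈ (Subalgebra.toSubmodule R).map (LinearMap.applyₗ w) := by
      refine Submodule.span_le.2 ?_ (hspan.ge (Submodule.mem_top : v ∈ ⊤))
      rintro _ ⟨k, rfl⟩
      exact ⟨σ k, hσR k, rfl⟩
    obtain ⟨r, hr, hrv⟩ := h
    exact ⟨r, hr, hrv⟩
  -- vectors fixed by both copies
  have hM₁ : ∀ S : Submodule (ZMod 2) V, Stable σ S → (∀ v ∈ S, α v ∈ S) → S ≠ ⊤ → S = ⊥ := by
    let M₁ : Submodule (ZMod 2) V := Submodule.span (ZMod 2)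
      ((Set.range fun x : H × V => σ x.1 x.2 - x.2) ∪ Set.range fun x : H × V => σ' x.1 x.2 - x.2)
    have hM₁top : M₁ = ⊤ := by
      by_contra hne'
      have hst : Stable σ M₁ := by
        intro l v hv
        refine Submodule.span_le (p := M₁.comap (σ l)) |>.2 ?_ hv
        rintro _ (⟨⟨k, u⟩, rfl⟩ | ⟨⟨k, u⟩, rfl⟩)
        · refine Submodule.subset_span (Or.inl ⟨(l * k * l⁻¹, σ l u), ?_⟩)
          show σ (l * k * l⁻¹) (σ l u) - σ l u = σ l (σ k u - u)
          rw [map_sub, ← Module.End.mul_apply, ← map_mul, inv_mul_cancel_right, map_mul,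
            Module.End.mul_apply]
        · refine Submodule.subset_span (Or.inr ⟨(k, σ l u), ?_⟩)
          show σ' k (σ l u) - σ l u = σ l (σ' k u - u)
          rw [map_sub, hσσ']
      have hal : ∀ v ∈ M₁, α v ∈ M₁ := by
        intro v hv
        refine Submodule.span_le (p := M₁.comap α) |>.2 ?_ hv
        rintro _ (⟨⟨k, u⟩, rfl⟩ | ⟨⟨k, u⟩, rfl⟩)
        · refine Submodule.subset_span (Or.inr ⟨(k, α u), ?_⟩)
          show σ' k (α u) - α u = α (σ k u - u)
          rw [map_sub, hασ]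
        · refine Submodule.subset_span (Or.inl ⟨(k, α u), ?_⟩)
          show σ k (α u) - α u = α (σ' k u - u)
          rw [map_sub, hασ']
      obtain ⟨k, v, hkv⟩ := hne
      exact hkv (trivial_of_sub_mem σ (M := ⊤) (fun _ _ _ => Submodule.mem_top)
        (fun u hu l => hmin M₁ hst hal hne' l u hu)
        (fun l u _ => Submodule.subset_span (Or.inl ⟨(l, u), rfl⟩)) k v Submodule.mem_top)
    intro S hS hSα hSne
    refine (Submodule.eq_bot_iff S).2 fun z hz => ?_
    obtain ⟨s, hs, rfl⟩ := hsurj z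
    have hfix : ∀ k, σ k (s w) = s w := fun k => hmin S hS hSα hSne k _ hz
    have hfix' : ∀ k, σ' k (s w) = s w := fun k => by
      have h := congrArg α (hmin S hS hSα hSne k _ (hSα _ hz))
      rwa [hασ, hαα] at h
    have hs' : ∀ k v, σ' k (s v) = s v := by
      intro k v
      refine Submodule.span_le (p := LinearMap.eqLocus (σ' k * s) s) |>.2 ?_
        (hspan.ge (Submodule.mem_top : v ∈ ⊤))
      rintro _ ⟨l, rfl⟩
      show σ' k (s (σ l w)) = s (σ l w)
      have hl : σ l w = σ' l⁻¹ w := by rw [hσ'w, inv_inv]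
      rw [hl, hRσ' s hs, hfix', hfix']
    have hsk : ∀ k, s * σ k = s := fun k => hext _ (mul_mem hs (hσR k)) s hs (by
      have hk : σ k w = σ' k⁻¹ w := by rw [hσ'w, inv_inv]
      rw [Module.End.mul_apply, hk, hRσ' s hs, hfix'])
    have h0 : M₁ ≤ LinearMap.ker s := Submodule.span_le.2 (by
      rintro _ (⟨⟨k, u⟩, rfl⟩ | ⟨⟨k, u⟩, rfl⟩)
      · show s (σ k u - u) = 0
        rw [map_sub, ← Module.End.mul_apply, hsk, sub_self]
      · show s (σ' k u - u) = 0
        rw [map_sub, hRσ' s hs, hs', sub_self])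
    exact h0 (hM₁top.ge (Submodule.mem_top : w ∈ ⊤))
  -- no invariant submodule for the two copies
  have hN : ∀ N : Submodule (ZMod 2) V, Stable σ N → Stable σ' N → N = ⊥ ∨ N = ⊤ := by
    intro N h1 h1'
    refine or_iff_not_imp_left.2 fun hNb => by_contra fun hNt => ?_
    set N' := N.map α with hN'
    have hN'σ : Stable σ N' := by
      rintro k _ ⟨v, hv, rfl⟩
      exact ⟨σ' k v, h1' k v hv, hασ' k v⟩
    have hswap : ∀ v ∈ N', α v ∈ N := by
      rintro _ ⟨v, hv, rfl⟩
      rwa [hαα]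
    have hsup : N ⊔ N' = ⊤ := by
      by_contra hne'
      have := hM₁ _ (stable_sup σ h1 hN'σ) (fun v hv => by
        obtain ⟨a, ha, b, hb, rfl⟩ := Submodule.mem_sup.1 hv
        rw [map_add, add_comm]
        exact Submodule.add_mem_sup (hswap b hb) (Submodule.mem_map_of_mem ha)) hne'
      exact hNb (eq_bot_iff.2 (le_sup_left.trans this.le))
    have hinf : N ⊓ N' = ⊥ := hM₁ _ (stable_inf σ h1 hN'σ)
      (fun v hv => ⟨hswap v hv.2, Submodule.mem_map_of_mem hv.1⟩)
      (fun e => hNt (top_le_iff.1 (e.ge.trans inf_le_left)))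
    have hmod : ∀ k v, σ k (σ' k v) - v ∈ N := by
      intro k v
      obtain ⟨a, ha, b, ⟨b', hb', rfl⟩, rfl⟩ :=
        Submodule.mem_sup.1 (hsup.ge (Submodule.mem_top : v ∈ ⊤))
      have e : σ k (σ' k (a + α b')) - (a + α b') =
          (σ k (σ' k a) - a) + (σ k (σ' k b') - b') := by
        have h := hL k b'
        simp only [map_sub] at h
        rw [map_add, map_add, show σ k (σ' k (α b')) = α b' - b' + σ k (σ' k b') by rw [← h]; abel]
        abel
      rw [e]
      exact add_mem (sub_mem (h1 k _ (h1' k a ha)) ha) (sub_mem (h1 k _ (h1' k b' hb')) hb')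
    have hcomw : ∀ k l, σ (k * l) w - σ (l * k) w ∈ N := by
      intro k l
      have h := hmod k (σ (l * k) w)
      rwa [← hσσ' (l * k) k w, hσ'w, ← Module.End.mul_apply (f := σ k),
        ← map_mul, ← Module.End.mul_apply, ← map_mul,
        show k * (l * k) * k⁻¹ = k * l by group] at h
    have hcomv : ∀ k l v, σ (k * l) v - σ (l * k) v ∈ N := by
      intro k l v
      refine Submodule.span_le (p := N.comap (σ (k * l) - σ (l * k))) |>.2 ?_
        (hspan.ge (Submodule.mem_top : v ∈ ⊤))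
      rintro _ ⟨m, rfl⟩
      show σ (k * l) (σ m w) - σ (l * k) (σ m w) ∈ N
      have hm : σ m w = σ' m⁻¹ w := by rw [hσ'w, inv_inv]
      rw [hm, hσσ', hσσ', ← map_sub]
      exact h1' _ _ (hcomw k l)
    have hsub := sub_mem_of_comm σ (M := ⊤) (fun _ _ _ => Submodule.mem_top) N
      (fun k l v _ => hcomv k l v)
    refine hmoved (sub_eq_zero.1 ((Submodule.eq_bot_iff _).1 hinf _ ⟨hsub k₁ w Submodule.mem_top, ?_⟩))
    refine ⟨σ k₁⁻¹ w - w, hsub _ w Submodule.mem_top, ?_⟩
    rw [map_sub, hαw, hασ, hαw, hσ'w, inv_inv]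
  -- `R` as a ring
  let e : ↥R ≃ₗ[ZMod 2] V := LinearEquiv.ofBijective
    ((LinearMap.applyₗ w).comp (Subalgebra.toSubmodule R).subtype)
    ⟨fun r s h => Subtype.ext (hext r r.2 s s.2 h), fun v => by
      obtain ⟨r, hr, hrv⟩ := hsurj v; exact ⟨⟨r, hr⟩, hrv⟩⟩
  have he : ∀ r : ↥R, e r = (r : Module.End (ZMod 2) V) w := fun r => rfl
  have hfinR : Finite ↥R := Finite.of_equiv V e.toEquiv.symm
  let g₁ : H →* ↥R :=
    { toFun := fun k => ⟨σ k, hσR k⟩
      map_one' := Subtype.ext (map_one σ)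
      map_mul' := fun a b => Subtype.ext (map_mul σ a b) }
  have hg₁ : ∃ k, g₁ k ≠ 1 := by
    obtain ⟨k, v, hkv⟩ := hne
    refine ⟨k, fun h => hkv ?_⟩
    rw [show σ k = 1 from congrArg Subtype.val h, Module.End.one_apply]
  have hnt : Nontrivial ↥R := by
    obtain ⟨k, hk⟩ := hg₁
    exact ⟨⟨g₁ k, 1, hk⟩⟩
  have hsimple : IsSimpleRing ↥R := IsSimpleRing.of_eq_bot_or_eq_top fun I => by
    let N : Submodule (ZMod 2) V :=
      { carrier := {v | e.symm v ∈ I}
        zero_mem' := by simp [I.zero_mem]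
        add_mem' := fun {a b} ha hb => by
          show e.symm (a + b) ∈ I
          rw [map_add]; exact I.add_mem ha hb
        smul_mem' := fun c v hv => by
          show e.symm (c • v) ∈ I
          rw [map_smul, Algebra.smul_def]; exact I.mul_mem_left _ _ hv }
    have hNσ : Stable σ N := fun k v hv => by
      show e.symm (σ k v) ∈ I
      rw [show σ k v = e (g₁ k * e.symm v) by
        rw [he]; show σ k v = σ k (e (e.symm v)); rw [e.apply_symm_apply], e.symm_apply_apply]
      exact I.mul_mem_left _ _ hv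
    have hNσ' : Stable σ' N := fun k v hv => by
      show e.symm (σ' k v) ∈ I
      rw [show σ' k v = e (e.symm v * g₁ k⁻¹) by
        rw [he]
        show σ' k v = (e.symm v : Module.End (ZMod 2) V) (σ k⁻¹ w)
        rw [← hσ'w, hRσ' _ (e.symm v).2, ← he, e.apply_symm_apply], e.symm_apply_apply]
      exact I.mul_mem_right _ _ hv
    rcases hN N hNσ hNσ' with h | h
    · left
      refine le_antisymm (fun r hr => ?_) bot_le
      have : e r = 0 := (Submodule.eq_bot_iff N).1 h _ (show e.symm (e r) ∈ I by simpa using hr)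
      rw [TwoSidedIdeal.mem_bot]
      exact e.map_eq_zero_iff.1 this
    · right
      refine le_antisymm le_top fun r _ => ?_
      have : e r ∈ N := h.ge Submodule.mem_top
      simpa [N] using this
  have hart : IsArtinianRing ↥R := isArtinian_of_finite
  obtain ⟨d, hd0, D, _, ⟨Φ⟩⟩ := IsSimpleRing.exists_ringEquiv_matrix_divisionRing ↥R
  have hfinM : Finite (Matrix (Fin d) (Fin d) D) := Finite.of_equiv _ Φ.toEquiv
  have hfinD : Finite D := Finite.of_injective (fun a : D => Matrix.scalar (Fin d) a)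
    (fun _ _ h => Matrix.scalar_inj.1 h)
  let _ : Field D := littleWedderburn D
  have htwoR : (1 : ↥R) + 1 = 0 := e.injective (by rw [map_add, map_zero, add_self_eq_zero'])
  have : CharP D 2 := CharTwo.of_one_ne_zero_of_two_eq_zero one_ne_zero (by
    have h := congrFun (congrFun (congrArg Φ htwoR) 0) 0
    rw [map_add, map_one, map_zero, Matrix.add_apply, Matrix.one_apply_eq, Matrix.zero_apply] at h
    rwa [← one_add_one_eq_two])
  have hncomm : ¬ ∀ r s : ↥R, r * s = s * r := fun h => by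
    obtain ⟨k, hk⟩ := hg₁
    exact hk (map_eq_one_of_commute g₁ (fun a b => h _ _) k)
  have hd2 : 2 ≤ d := by
    by_contra hlt
    have : d = 1 := by have := hd0.out; omega
    subst this
    refine hncomm fun r s => Φ.injective ?_
    rw [map_mul, map_mul]
    ext i j
    simp [Matrix.mul_apply, Subsingleton.elim i 0, Subsingleton.elim j 0, mul_comm]
  -- the trace-like map
  let tr : ↥R →ₗ[ZMod 2] ↥R := e.symm.toLinearMap.comp ((α - 1).comp e.toLinearMap)
  have htr : ∀ r, e (tr r) = α (e r) - e r := fun r => e.apply_symm_apply _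
  have hσσe : ∀ k r, σ k (σ' k (e r)) = e (g₁ k * r * g₁ k⁻¹) := fun k r => by
    rw [he, he]
    show σ k (σ' k ((r : Module.End (ZMod 2) V) w)) = σ k ((r : Module.End (ZMod 2) V) (σ k⁻¹ w))
    rw [← hσ'w, hRσ' r r.2]
  have htrc : ∀ r s, tr r * s = s * tr r := by
    intro r s
    have hk : ∀ k, g₁ k * tr r * g₁ k⁻¹ = tr r := fun k => e.injective (by rw [← hσσe, htr, hL])
    obtain ⟨s, hs⟩ := s
    induction hs using Algebra.adjoin_induction with
    | mem x hx =>
      obtain ⟨k, rfl⟩ := hx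
      calc tr r * g₁ k = g₁ k * tr r * g₁ k⁻¹ * g₁ k := by rw [hk]
        _ = g₁ k * tr r := by rw [mul_assoc _ (g₁ k⁻¹), ← map_mul, inv_mul_cancel, map_one, mul_one]
    | algebraMap c => exact (Algebra.commutes c (tr r)).symm
    | add x y hx hy ihx ihy =>
      show tr r * (⟨x, hx⟩ + ⟨y, hy⟩) = (⟨x, hx⟩ + ⟨y, hy⟩) * tr r
      rw [mul_add, add_mul, ihx, ihy]
    | mul x y hx hy ihx ihy =>
      show tr r * (⟨x, hx⟩ * ⟨y, hy⟩) = (⟨x, hx⟩ * ⟨y, hy⟩) * tr r
      rw [← mul_assoc, ihx, mul_assoc, ihy, mul_assoc]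
  have htrg : ∀ k, tr (g₁ k) = g₁ k⁻¹ + g₁ k := fun k => e.injective (by
    rw [htr, map_add, he, he, sub_eq_add_neg, neg_eq_self']
    show α (σ k w) + σ k w = σ k⁻¹ w + σ k w
    rw [hασ, hαw, hσ'w])
  have hgspan : Submodule.span (ZMod 2) (Set.range g₁) = ⊤ := by
    refine top_le_iff.1 fun r _ => ?_
    have h : e r ∈ (Submodule.span (ZMod 2) (Set.range g₁)).map e.toLinearMap := by
      rw [Submodule.map_span, ← Set.range_comp]
      refine Submodule.span_mono ?_ (hspan.ge Submodule.mem_top)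
      rintro _ ⟨k, rfl⟩
      exact ⟨k, rfl⟩
    obtain ⟨s, hs, hse⟩ := h
    rwa [e.injective hse] at hs
  have hid : ∀ r s : ↥R, ∀ x, (r * s + s * r + tr r * s + tr s * r) * x =
      x * (r * s + s * r + tr r * s + tr s * r) := by
    intro r s x
    have hr : r ∈ Submodule.span (ZMod 2) (Set.range g₁) := hgspan.ge Submodule.mem_top
    induction hr using Submodule.span_induction with
    | zero => simp
    | add a b _ _ iha ihb =>
      rw [map_add, show (a + b) * s + s * (a + b) + (tr a + tr b) * s + tr s * (a + b) =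
        (a * s + s * a + tr a * s + tr s * a) + (b * s + s * b + tr b * s + tr s * b) by
          simp only [add_mul, mul_add]; abel, add_mul, mul_add, iha, ihb]
    | smul c a _ iha =>
      simp only [map_smul, smul_mul_assoc, mul_smul_comm, ← smul_add, iha]
    | mem a ha =>
      obtain ⟨k, rfl⟩ := ha
      have hs : s ∈ Submodule.span (ZMod 2) (Set.range g₁) := hgspan.ge Submodule.mem_top
      induction hs using Submodule.span_induction with
      | zero => simp
      | add a b _ _ iha ihb =>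
        rw [map_add, show g₁ k * (a + b) + (a + b) * g₁ k + tr (g₁ k) * (a + b) +
            (tr a + tr b) * g₁ k = (g₁ k * a + a * g₁ k + tr (g₁ k) * a + tr a * g₁ k) +
            (g₁ k * b + b * g₁ k + tr (g₁ k) * b + tr b * g₁ k) by
            simp only [add_mul, mul_add]; abel, add_mul, mul_add, iha, ihb]
      | smul c a _ iha =>
        simp only [map_smul, smul_mul_assoc, mul_smul_comm, ← smul_add, iha]
      | mem a ha =>
        obtain ⟨l, rfl⟩ := ha
        have hz : ∀ z : ↥R, z + z = 0 := fun z => e.injective (by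
          rw [map_add, map_zero, add_self_eq_zero'])
        have e2 : g₁ k * g₁ l + g₁ l * g₁ k + tr (g₁ k) * g₁ l + tr (g₁ l) * g₁ k =
            tr (g₁ (k⁻¹ * l)) := by
          rw [htrg, htrg, htrg, mul_inv_rev, inv_inv, map_mul, map_mul, add_mul, add_mul]
          have h1 := hz (g₁ k * g₁ l)
          have h2 := hz (g₁ l * g₁ k)
          calc g₁ k * g₁ l + g₁ l * g₁ k + (g₁ k⁻¹ * g₁ l + g₁ k * g₁ l) +
                (g₁ l⁻¹ * g₁ k + g₁ l * g₁ k)
              = (g₁ k * g₁ l + g₁ k * g₁ l) + (g₁ l * g₁ k + g₁ l * g₁ k) +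
                  (g₁ l⁻¹ * g₁ k + g₁ k⁻¹ * g₁ l) := by abel
            _ = g₁ l⁻¹ * g₁ k + g₁ k⁻¹ * g₁ l := by rw [h1, h2, add_zero, zero_add]
        rw [e2, htrc]
  have hscal : ∀ z : ↥R, (∀ x, z * x = x * z) → ∃ a : D, Φ z = a • 1 := by
    intro z hz
    obtain ⟨a, ha⟩ := Matrix.mem_range_scalar_of_commute_single (M := Φ z) fun i j _ => by
      show Matrix.single i j 1 * Φ z = Φ z * Matrix.single i j 1
      rw [← Φ.apply_symm_apply (Matrix.single i j 1), ← map_mul, ← map_mul, hz]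
    exact ⟨a, by rw [← ha, Matrix.scalar_apply, Matrix.smul_one_eq_diagonal]⟩
  set tr' := fun m => Φ (tr (Φ.symm m)) with htr'
  have hsc' : ∀ m, ∃ a : D, tr' m = a • 1 := fun m => hscal _ (htrc _)
  have hid' : ∀ r s, ∃ a : D, r * s + s * r + tr' r * s + tr' s * r = a • 1 := by
    intro r s
    obtain ⟨a, ha⟩ := hscal _ (hid (Φ.symm r) (Φ.symm s))
    simp only [map_add, map_mul, RingEquiv.apply_symm_apply] at ha
    exact ⟨a, ha⟩
  obtain rfl := dim_eq_two hd2 tr' hsc' hid'
  have htrace := eq_trace tr' hsc' hid'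
  have htrtr : ∀ r : ↥R, Φ (tr r) = (Φ r).trace • 1 := fun r => by
    have h := htrace (Φ r)
    simpa only [htr', Φ.symm_apply_apply] using h
  -- the automorphisms
  have hγw : ∀ g, γ g w = w := fun g => hγfix g w₀
  have hθ : ∀ g, ∀ r : ↥R, ∃ r' : ↥R, γ g * (r : Module.End (ZMod 2) V) = r' * γ g := by
    intro g r
    obtain ⟨r, hr⟩ := r
    induction hr using Algebra.adjoin_induction with
    | mem x hx =>
      obtain ⟨k, rfl⟩ := hx
      obtain ⟨k', hk'⟩ := hγσ g k
      exact ⟨g₁ k', hk'⟩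
    | algebraMap c => exact ⟨algebraMap _ _ c, (Algebra.commutes c (γ g)).symm⟩
    | add x y hx hy ihx ihy =>
      obtain ⟨x', hx'⟩ := ihx
      obtain ⟨y', hy'⟩ := ihy
      exact ⟨x' + y', by simp only [mul_add, Subalgebra.coe_add, add_mul]; rw [← hx', ← hy']⟩
    | mul x y hx hy ihx ihy =>
      obtain ⟨x', hx'⟩ := ihx
      obtain ⟨y', hy'⟩ := ihy
      refine ⟨x' * y', ?_⟩
      show γ g * (x * y) = (x' : Module.End (ZMod 2) V) * y' * γ g
      rw [← mul_assoc, hx', mul_assoc _ (γ g), hy', mul_assoc]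
  choose θ₀ hθ₀ using hθ
  have hθe : ∀ g r, e (θ₀ g r) = γ g (e r) := fun g r => by
    rw [he, he]
    have h := LinearMap.congr_fun (hθ₀ g r) w
    rw [Module.End.mul_apply, Module.End.mul_apply, hγw] at h
    exact h.symm
  have hγγ : ∀ g v, γ g⁻¹ (γ g v) = v := fun g v => inv_apply_apply γ g v
  let θ : Γ → ↥R ≃+* ↥R := fun g =>
    { toFun := θ₀ g
      invFun := θ₀ g⁻¹
      left_inv := fun r => e.injective (by rw [hθe, hθe, hγγ])
      right_inv := fun r => e.injective (by rw [hθe, hθe, apply_inv_apply])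
      map_mul' := fun r s => e.injective (by
        rw [hθe, he, he]
        show γ g ((r : Module.End (ZMod 2) V) ((s : Module.End (ZMod 2) V) w)) =
          (θ₀ g r : Module.End (ZMod 2) V) ((θ₀ g s : Module.End (ZMod 2) V) w)
        rw [← he (θ₀ g s), hθe]
        exact LinearMap.congr_fun (hθ₀ g r) _)
      map_add' := fun r s => e.injective (by rw [hθe, map_add, map_add, map_add, hθe, hθe]) }
  have hθap : ∀ g r, θ g r = θ₀ g r := fun g r => rfl
  have hθfixtr : ∀ g r, θ g (tr r) = tr r := fun g r =>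
    e.injective (by rw [hθap, hθe, htr, hγfix])
  have htrθ : ∀ g r, tr (θ g r) = tr r := fun g r => e.injective (by
    rw [htr, htr, hθap, hθe]
    have h1 : α (γ g (e r)) = γ g (α (e r)) := LinearMap.congr_fun (hγα g).eq.symm _
    rw [h1, ← map_sub, hγfix])
  let θ' : Γ → Matrix (Fin 2) (Fin 2) D ≃+* Matrix (Fin 2) (Fin 2) D := fun g =>
    Φ.symm.trans ((θ g).trans Φ)
  have hθ' : ∀ g m, θ' g m = Φ (θ g (Φ.symm m)) := fun g m => rfl
  have h1' : ∀ g (a : D), θ' g (a • 1) = a • 1 := by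
    intro g a
    have h : a • (1 : Matrix (Fin 2) (Fin 2) D) = Φ (tr (Φ.symm (Matrix.single 0 0 a))) := by
      rw [htrtr, Φ.apply_symm_apply, Matrix.trace_fin_two]
      simp [Matrix.single]
    rw [hθ', h, Φ.symm_apply_apply, hθfixtr]
  have h2' : ∀ g m, (θ' g m).trace = m.trace := by
    intro g m
    have h := congrFun (congrFun (congrArg Φ (htrθ g (Φ.symm m))) 0) 0
    rw [htrtr, htrtr, Φ.apply_symm_apply] at h
    simpa [hθ'] using h
  have h3' : ∀ g h m, θ' g (θ' h m - m) = θ' h m - m := by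
    intro g h m
    have h0 : θ g (θ h (Φ.symm m) - Φ.symm m) = θ h (Φ.symm m) - Φ.symm m := e.injective (by
      rw [hθap, hθe, map_sub, hθap, hθe, hγ2])
    have h := congrArg Φ h0
    rw [hθ', hθ', map_sub, Φ.symm_apply_apply, h, map_sub Φ, Φ.apply_symm_apply]
  have hrange : (Set.range γ).ncard ≤
      (Set.range fun g => (θ' g : Matrix (Fin 2) (Fin 2) D → Matrix (Fin 2) (Fin 2) D)).ncard := by
    rw [← Nat.card_coe_set_eq, ← Nat.card_coe_set_eq]
    refine Nat.card_le_card_of_injective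
      (fun x => ⟨(θ' x.2.choose : Matrix (Fin 2) (Fin 2) D → _), x.2.choose, rfl⟩) ?_
    rintro ⟨x, hx⟩ ⟨y, hy⟩ hxy
    refine Subtype.ext ?_
    show x = y
    rw [← hx.choose_spec, ← hy.choose_spec]
    refine LinearMap.ext fun v => ?_
    have h := congrFun (congrArg Subtype.val hxy) (Φ (e.symm v))
    simp only [hθ', Φ.symm_apply_apply] at h
    have h' := congrArg e (Φ.injective h)
    rwa [hθap, hθap, hθe, hθe, e.apply_symm_apply] at h'
  have hfix : ∀ g v, γ g v = v → θ' g (Φ (e.symm v)) = Φ (e.symm v) := fun g v h => by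
    rw [hθ', Φ.symm_apply_apply]
    congr 1
    exact e.injective (by rw [hθap, hθe, e.apply_symm_apply, h])
  have hcardM : Nat.card (Matrix (Fin 2) (Fin 2) D) = Nat.card V := by
    rw [← Nat.card_congr Φ.toEquiv, Nat.card_congr e.toEquiv]
  have hc : Nat.card (Matrix (Fin 2) (Fin 2) D) ≤
      2 * (Set.range fun g => (θ' g : Matrix (Fin 2) (Fin 2) D → Matrix (Fin 2) (Fin 2) D)).ncard *
        Nat.card {m : Matrix (Fin 2) (Fin 2) D // m.trace = 0 ∧ ∀ g, θ' g m = m} ∨
      (∃ g m, θ' g m ≠ m) ∧ Nat.card (Matrix (Fin 2) (Fin 2) D) ≤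
      2 * (Set.range fun g => (θ' g : Matrix (Fin 2) (Fin 2) D → Matrix (Fin 2) (Fin 2) D)).ncard *
        Nat.card {m : Matrix (Fin 2) (Fin 2) D // ∀ g, θ' g m = m} := by
    rw [hcardM]
    refine hcount.imp (fun hle => hle.trans (Nat.mul_le_mul (Nat.mul_le_mul le_rfl hrange) ?_))
      fun ⟨⟨g, v, hgv⟩, hle⟩ => ⟨⟨g, Φ (e.symm v), fun h => hgv ?_⟩,
        hle.trans (Nat.mul_le_mul (Nat.mul_le_mul le_rfl hrange) ?_)⟩
    · refine Nat.card_le_card_of_injective
        (fun v => ⟨Φ (e.symm v.1), ?_, fun g => hfix g _ (v.2.2 g)⟩) ?_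
      · have h0 : tr (e.symm v.1) = 0 := e.injective (by
          rw [htr, e.apply_symm_apply, v.2.1, sub_self, map_zero])
        have h := congrFun (congrFun (htrtr (e.symm v.1)) 0) 0
        rw [h0, map_zero] at h
        simpa using h.symm
      · intro x y hxy
        exact Subtype.ext (e.symm.injective (Φ.injective (congrArg Subtype.val hxy)))
    · rw [hθ', Φ.symm_apply_apply] at h
      have h' := congrArg e (Φ.injective h)
      rwa [hθap, hθe, e.apply_symm_apply] at h'
    · refine Nat.card_le_card_of_injective (fun v => ⟨Φ (e.symm v.1), fun g => hfix g _ (v.2 g)⟩) ?_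
      intro x y hxy
      exact Subtype.ext (e.symm.injective (Φ.injective (congrArg Subtype.val hxy)))
  have hq := card_eq_two θ' h1' h2' h3' hc
  let _ : Fintype D := Fintype.ofFinite D
  have h6 : Nat.card (GL (Fin 2) D) = 6 := by
    rw [Matrix.card_GL_field, Fin.prod_univ_two, ← Nat.card_eq_fintype_card, hq]
    rfl
  obtain ⟨k, hk⟩ := hg₁
  refine hk (Φ.injective ?_)
  have := map_eq_one_of_card_six h6 (((Φ.toRingHom.toMonoidHom).comp g₁).toHomUnits) k
  rw [map_one]
  exact congrArg Units.val this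

end CfsgLib.FFModules.PGV
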