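import Cfsg.Agent.Lib.FFModules.PGVOdd
import Cfsg.Agent.Lib.FFModules.PGVTwo
import Cfsg.Agent.Lib.FFModules.PGVOffender
import Cfsg.Agent.Lib.FFModules.PLocalBasic
import Mathlib.GroupTheory.NoncommPiCoprod
import Mathlib.GroupTheory.Nilpotent

/-!
The `P(G,V)`-theorem: a best offender normalises every component.
-/

set_option autoImplicit false

namespace CfsgLib.FFModules.PGV

open scoped commutatorElement

variable {p : ℕ} [hp : Fact p.Prime] {V : Type*} [AddCommGroup V] [Module (ZMod p) V]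

/-- The restriction of an action to an invariant submodule. -/
def restrictHom {X : Type*} [Monoid X] (σ : X →* Module.End (ZMod p) V)
    (M : Submodule (ZMod p) V) (hM : ∀ x, ∀ v ∈ M, σ x v ∈ M) : X →* Module.End (ZMod p) M where
  toFun x := (σ x).restrict (hM x)
  map_one' := by ext v; simp
  map_mul' x y := by ext v; simp

theorem restrictHom_apply {X : Type*} [Monoid X] (σ : X →* Module.End (ZMod p) V)
    (M : Submodule (ZMod p) V) (hM : ∀ x, ∀ v ∈ M, σ x v ∈ M) (x : X) (v : M) :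
    ((restrictHom σ M hM x v : M) : V) = σ x v := rfl

/-- Two commuting actions of a perfect group agreeing on a submodule are trivial there. -/
theorem trivial_of_eq {H : Type*} [Group H] [Group.IsPerfect H] (σ σ' : H →* Module.End (ZMod p) V)
    (hcomm : ∀ k l, Commute (σ k) (σ' l)) {M : Submodule (ZMod p) V} (hM : Stable σ M)
    (h : ∀ k, ∀ v ∈ M, σ' k v = σ k v) : ∀ k, ∀ v ∈ M, σ k v = v := by
  refine trivial_of_comm σ hM fun k l u hu => ?_
  have e : σ (k * l) u = σ (l * k) u := by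
    rw [map_mul, map_mul, Module.End.mul_apply, Module.End.mul_apply, ← h l u hu,
      ← Module.End.mul_apply (f := σ k), (hcomm k l).eq, Module.End.mul_apply, h l _ (hM k u hu)]
  rw [e, sub_self]
  exact zero_mem _

/-- An action whose values on a submodule are unchanged by a nontrivial automorphism of a
quasisimple group is trivial there. -/
theorem trivial_of_twist {H : Type*} [Group H] [Group.IsPerfect H]
    (hZ : ∀ N : Subgroup H, N.Normal → N ≠ ⊤ → N ≤ Subgroup.center H)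
    (δ : H →* Module.End (ZMod p) V) {M : Submodule (ZMod p) V} (hM : Stable δ M) (β : H →* H)
    (hβ : ∃ k, β k ≠ k) (h : ∀ k, ∀ v ∈ M, δ (β k) v = δ k v) : ∀ k, ∀ v ∈ M, δ k v = v := by
  let N : Subgroup H :=
    { carrier := {k | ∀ v ∈ M, δ k v = v}
      one_mem' := fun v _ => by simp
      mul_mem' := fun {a b} ha hb v hv => by rw [map_mul, Module.End.mul_apply, hb v hv, ha v hv]
      inv_mem' := fun {a} ha v hv => by
        conv_lhs => rw [← ha v hv]
        exact inv_apply_apply δ a v }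
  have hn : N.Normal := ⟨fun x hx g v hv => by
    rw [map_mul, map_mul, Module.End.mul_apply, Module.End.mul_apply, hx _ (hM _ v hv),
      apply_inv_apply]⟩
  by_contra hne
  have hle := hZ N hn fun e => hne fun k v hv => (e ▸ Subgroup.mem_top k : k ∈ N) v hv
  have hc : ∀ k, k⁻¹ * β k ∈ Subgroup.center H := fun k => hle fun v hv => by
    rw [map_mul, Module.End.mul_apply, h k v hv, inv_apply_apply]
  let f : H →* H :=
    { toFun := fun k => k⁻¹ * β k
      map_one' := by simp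
      map_mul' := fun k l => by
        rw [map_mul, mul_inv_rev, mul_assoc, ← mul_assoc k⁻¹, ← mul_assoc,
          Subgroup.mem_center_iff.1 (hc k) l⁻¹, mul_assoc] }
  obtain ⟨k, hk⟩ := hβ
  have hf : f k = 1 := map_eq_one_of_commute f (fun a b => (Subgroup.mem_center_iff.1 (hc a) _).symm) k
  exact hk (inv_mul_eq_one.1 hf).symm

/-- If `σ` is nontrivial, its kernel is central; here: an element acting centrally is central. -/
theorem mem_center_of_commute {H : Type*} [Group H] [Group.IsPerfect H]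
    (hZ : ∀ N : Subgroup H, N.Normal → N ≠ ⊤ → N ≤ Subgroup.center H)
    (σ : H →* Module.End (ZMod p) V) (hne : ∃ k, σ k ≠ 1) {x : H}
    (hx : ∀ l, Commute (σ x) (σ l)) : x ∈ Subgroup.center H := by
  have hker : σ.ker ≤ Subgroup.center H := hZ _ inferInstance fun e => by
    obtain ⟨k, hk⟩ := hne
    exact hk (show k ∈ σ.ker by rw [e]; exact Subgroup.mem_top k)
  have hc : ∀ l, x * l * x⁻¹ * l⁻¹ ∈ Subgroup.center H := fun l => hker (by
    rw [MonoidHom.mem_ker, map_mul, map_mul, map_mul, (hx l).eq, mul_assoc (σ l), ← map_mul,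
      mul_inv_cancel, map_one, mul_one, ← map_mul, mul_inv_cancel, map_one])
  let f : H →* H :=
    { toFun := fun l => x * l * x⁻¹ * l⁻¹
      map_one' := by simp
      map_mul' := fun l m => by
        calc x * (l * m) * x⁻¹ * (l * m)⁻¹ = x * l * x⁻¹ * ((x * m * x⁻¹ * m⁻¹) * l⁻¹) := by group
          _ = x * l * x⁻¹ * (l⁻¹ * (x * m * x⁻¹ * m⁻¹)) := by
            rw [Subgroup.mem_center_iff.1 (hc m) l⁻¹]
          _ = _ := by group }
  refine Subgroup.mem_center_iff.2 fun l => ?_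
  have hl : x * l * x⁻¹ * l⁻¹ = 1 :=
    map_eq_one_of_commute f (fun a b => (Subgroup.mem_center_iff.1 (hc a) _).symm) l
  rw [mul_inv_eq_one, mul_inv_eq_iff_eq_mul] at hl
  exact hl.symm

theorem card_subtype_le {α : Type*} [Finite α] {P Q : α → Prop} (h : ∀ x, P x → Q x) :
    Nat.card {x // P x} ≤ Nat.card {x // Q x} :=
  Nat.card_le_card_of_injective (fun x => (⟨x.1, h x.1 x.2⟩ : {x // Q x})) fun _ _ e =>
    Subtype.ext (congrArg Subtype.val e :)

variable {G : Type*} [Group G]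

/-- Restricting a best offender to an invariant submodule. -/
theorem card_le_range [Finite V] (ρ : G →* Module.End (ZMod p) V) (B : Subgroup G) [Finite B]
    (h3 : ∀ C ≤ B, Nat.card C * Nat.card {v : V // ∀ c ∈ C, ρ c v = v} ≤
      Nat.card B * Nat.card {v : V // ∀ b ∈ B, ρ b v = v})
    (W : Submodule (ZMod p) V) (hW : ∀ b : B, ∀ v ∈ W, ρ b v ∈ W) :
    Nat.card W ≤ (Set.range (restrictHom (ρ.comp B.subtype) W hW)).ncard *
      Nat.card {v : W // ∀ b ∈ B, ρ b v = (v : V)} := by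
  set γ := restrictHom (ρ.comp B.subtype) W hW with hγ
  set C := γ.ker.map B.subtype with hC
  have hCB : C ≤ B := Subgroup.map_subtype_le _
  have h := h3 C hCB
  let fixC : AddSubgroup V :=
    { carrier := {v | ∀ c ∈ C, ρ c v = v}
      zero_mem' := fun c _ => map_zero _
      add_mem' := fun {a b} ha hb c hc => by rw [map_add, ha c hc, hb c hc]
      neg_mem' := fun {a} ha c hc => by rw [map_neg, ha c hc] }
  let fixB : AddSubgroup V :=
    { carrier := {v | ∀ b ∈ B, ρ b v = v}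
      zero_mem' := fun c _ => map_zero _
      add_mem' := fun {a b} ha hb c hc => by rw [map_add, ha c hc, hb c hc]
      neg_mem' := fun {a} ha c hc => by rw [map_neg, ha c hc] }
  have hle : fixB ≤ fixC := fun v hv c hc => hv c (hCB hc)
  have hWC : W.toAddSubgroup ≤ fixC := by
    rintro v hv _ ⟨c, hc, rfl⟩
    exact congrArg Subtype.val (LinearMap.congr_fun (hc : γ c = 1) ⟨v, hv⟩)
  have e1 : fixB.relIndex fixC * Nat.card fixB = Nat.card fixC := by
    rw [mul_comm, ← AddSubgroup.relIndex_bot_left, AddSubgroup.relIndex_mul_relIndex _ _ _ bot_le hle,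
      AddSubgroup.relIndex_bot_left]
  have e2 : fixB.relIndex W.toAddSubgroup * Nat.card ↥(fixB ⊓ W.toAddSubgroup) = Nat.card W := by
    rw [← AddSubgroup.inf_relIndex_right, mul_comm, ← AddSubgroup.relIndex_bot_left,
      AddSubgroup.relIndex_mul_relIndex _ _ _ bot_le inf_le_right, AddSubgroup.relIndex_bot_left]
    rfl
  have e4 : fixB.relIndex W.toAddSubgroup ≤ fixB.relIndex fixC :=
    AddSubgroup.relIndex_le_of_le_right hWC AddSubgroup.index_ne_zero_of_finite
  have e5 : Nat.card ↥(fixB ⊓ W.toAddSubgroup) = Nat.card {v : W // ∀ b ∈ B, ρ b v = (v : V)} :=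
    Nat.card_congr ⟨fun v => ⟨⟨v.1, v.2.2⟩, v.2.1⟩, fun v => ⟨v.1.1, v.2, v.1.2⟩,
      fun _ => rfl, fun _ => rfl⟩
  have e6 : Nat.card B = (Set.range γ).ncard * Nat.card C := by
    rw [hC, ← Nat.card_congr (γ.ker.equivMapOfInjective _ B.subtype_injective).toEquiv,
      ← γ.ker.card_mul_index, mul_comm]
    congr 1
    have hk : γ.ker = γ.toHomUnits.ker := by
      ext x
      rw [MonoidHom.mem_ker, MonoidHom.mem_ker, Units.ext_iff]
      rfl
    rw [hk, Subgroup.index_ker, ← Nat.card_coe_set_eq]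
    refine Nat.card_congr (Equiv.ofBijective
      (fun x => ⟨(x.1 : Module.End (ZMod p) W), by obtain ⟨y, hy⟩ := x.2; exact ⟨y, by rw [← hy]; rfl⟩⟩)
      ⟨fun x y he => Subtype.ext (Units.ext (congrArg Subtype.val he :)), ?_⟩)
    rintro ⟨_, y, rfl⟩
    exact ⟨⟨_, y, rfl⟩, rfl⟩
  have hC0 : 0 < Nat.card C := by
    have : Finite C := Finite.of_injective _ (Subgroup.inclusion_injective hCB)
    exact Nat.card_pos
  have h' : Nat.card C * (fixB.relIndex fixC * Nat.card fixB) ≤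
      (Set.range γ).ncard * Nat.card C * Nat.card fixB := by
    rw [e1, ← e6]; exact h
  have h'' : fixB.relIndex fixC ≤ (Set.range γ).ncard := by
    refine Nat.le_of_mul_le_mul_right ?_ (Nat.mul_pos hC0 (Nat.card_pos (α := fixB)))
    calc fixB.relIndex fixC * (Nat.card C * Nat.card fixB)
        = Nat.card C * (fixB.relIndex fixC * Nat.card fixB) := by ring
      _ ≤ _ := by rw [← mul_assoc] at h' ⊢; exact h'.trans_eq (mul_assoc _ _ _)
  rw [← e2, e5]
  exact Nat.mul_le_mul (e4.trans h'') le_rfl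

variable {H : Type*} [Group H] (ι : H →* G)

/-- `g` normalises the image of `ι`. -/
def Nrm (g : G) : Prop :=
  ∀ h, ∃ h', g * ι h * g⁻¹ = ι h'

theorem nrm_one : Nrm ι 1 := fun h => ⟨h, by simp⟩

theorem Nrm.mul {g g' : G} (hg : Nrm ι g) (hg' : Nrm ι g') : Nrm ι (g * g') := fun h => by
  obtain ⟨h₁, e₁⟩ := hg' h
  obtain ⟨h₂, e₂⟩ := hg h₁
  exact ⟨h₂, by rw [← e₂, ← e₁]; group⟩

theorem Nrm.pow {g : G} (hg : Nrm ι g) (n : ℕ) : Nrm ι (g ^ n) := by
  induction n with
  | zero => rw [pow_zero]; exact nrm_one ι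
  | succ n ih => rw [pow_succ]; exact ih.mul ι hg

theorem exists_twist (hι : Function.Injective ι) {g : G} (hg : Nrm ι g) :
    ∃ β : H →* H, ∀ h, g * ι h * g⁻¹ = ι (β h) := by
  choose β hβ using hg
  exact ⟨MonoidHom.mk' β fun a b => hι (by rw [map_mul, ← hβ, ← hβ, ← hβ, map_mul]; group), hβ⟩

/-- The data of a best offender and of a quasisimple group with conjugates under it. -/
structure Setup (ρ : G →* Module.End (ZMod p) V) (A : Subgroup G) : Prop where
  comm : ∀ a ∈ A, ∀ b ∈ A, a * b = b * a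
  exp : ∀ a ∈ A, a ^ p = 1
  inj : Function.Injective ι
  dich : ∀ g ∈ A, Nrm ι g ∨ ∀ h l, Commute (g * ι h * g⁻¹) (ι l)
  normal_le : ∀ N : Subgroup H, N.Normal → N ≠ ⊤ → N ≤ Subgroup.center H
  nontriv : ∃ h, ρ (ι h) ≠ 1

variable {ι} {ρ : G →* Module.End (ZMod p) V} {A : Subgroup G}

theorem Setup.commute_conj (S : Setup ι ρ A) {g g' : G} (hg : g ∈ A) (hg' : g' ∈ A)
    (h : ¬ Nrm ι (g'⁻¹ * g)) (k l : H) : Commute (g * ι k * g⁻¹) (g' * ι l * g'⁻¹) := by
  have h1 := ((S.dich _ (mul_mem (inv_mem hg') hg)).resolve_left h k l).map (MulAut.conj g').toMonoidHom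
  convert h1 using 1 <;> simp [mul_assoc]

theorem Setup.apply_comm (S : Setup ι ρ A) {a b : G} (ha : a ∈ A) (hb : b ∈ A) (v : V) :
    ρ a (ρ b v) = ρ b (ρ a v) := by
  rw [← Module.End.mul_apply, ← map_mul, S.comm a ha b hb, map_mul, Module.End.mul_apply]

/-- The rearranged quadratic relation. -/
theorem Setup.fix_symm (S : Setup ι ρ A) {a b : G} (ha : a ∈ A) (hb : b ∈ A) {v : V}
    (h : ρ b (ρ a v - v) = ρ a v - v) : ρ a (ρ b v - v) = ρ b v - v := by
  rw [map_sub, sub_eq_iff_eq_add] at h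
  rw [map_sub, S.apply_comm ha hb, h]
  abel

/-- For odd `p` a quadratic element of a best offender normalises. -/
theorem Setup.nrm_of_quadratic [Group.IsPerfect H] [Finite H] (S : Setup ι ρ A) (hodd : p ≠ 2)
    {b : G} (hb : b ∈ A) (hq : ∀ v, ρ b (ρ b v - v) = ρ b v - v) : Nrm ι b := by
  by_contra hnb
  have hinv : ¬ Nrm ι b⁻¹ := fun h => hnb (by
    have : b = b⁻¹ ^ (p - 1) := by
      rw [inv_pow, eq_inv_iff_mul_eq_one, ← pow_succ', Nat.sub_add_cancel hp.out.one_le, S.exp b hb]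
    rw [this]; exact h.pow ι _)
  have hquad : (ρ b - 1) * (ρ b - 1) = 0 := LinearMap.ext fun v => by
    simp only [Module.End.mul_apply, LinearMap.sub_apply, Module.End.one_apply,
      LinearMap.zero_apply, hq, sub_self]
  have hbb : ρ b * ρ b⁻¹ = 1 := by rw [← map_mul, mul_inv_cancel, map_one]
  have hmem : ∀ x : H, (orderOf x).Coprime p → x ∈ Subgroup.center H := by
    intro x hx
    obtain ⟨m, hm⟩ := exists_pow_eq_self_of_coprime (x := x) (n := p) hx.symm
    set y := x ^ m with hy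
    have hyx : y ^ p = x := by rw [hy, ← pow_mul, mul_comm, pow_mul]; exact hm
    have hcq := commute_pow_of_quadratic hodd hquad (y := ρ (ι y)) (y₁ := ρ (b * ι y * b⁻¹))
      (y₂ := ρ (b⁻¹ * ι y * b⁻¹⁻¹))
      (by rw [← map_mul, ← map_mul, inv_mul_cancel_right])
      (by rw [← map_mul, ← map_mul]; congr 1; group)
      ((((S.dich b hb).resolve_left hnb y y).symm).map ρ)
      ((((S.dich _ (inv_mem hb)).resolve_left hinv y y).symm).map ρ)
    rw [← map_pow, ← map_pow, hyx] at hcq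
    refine mem_center_of_commute S.normal_le (ρ.comp ι) S.nontriv fun l => ?_
    have e : ρ (ι x) = ρ (b * ι x * b⁻¹) := by
      rw [map_mul, map_mul, hcq.eq, mul_assoc, hbb, mul_one]
    show Commute (ρ (ι x)) (ρ (ι l))
    rw [e]
    exact ((S.dich b hb).resolve_left hnb x l).map ρ
  have hR : Cfsg.pResidual p H ≤ Subgroup.center H := pResidual_le_iff.2 hmem
  have hq' : IsPGroup p (H ⧸ Subgroup.center H) := fun q => by
    obtain ⟨g, rfl⟩ := QuotientGroup.mk'_surjective _ q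
    obtain ⟨k, hk⟩ := exists_pPow_mem_pResidual (p := p) g
    exact ⟨k, by rw [← map_pow]; exact (QuotientGroup.eq_one_iff _).2 (hR hk)⟩
  have htop : ∀ x : H, x ∈ Subgroup.center H := by
    have : Group.IsNilpotent (H ⧸ Subgroup.center H) := hq'.isNilpotent
    have : Group.IsPerfect (H ⧸ Subgroup.center H) :=
      Group.IsPerfect.ofSurjective (f := QuotientGroup.mk' _) (QuotientGroup.mk'_surjective _)
    intro x
    by_contra hx
    have : Nontrivial (H ⧸ Subgroup.center H) :=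
      ⟨⟨QuotientGroup.mk x, 1, fun e => hx ((QuotientGroup.eq_one_iff x).1 e)⟩⟩
    exact Group.IsPerfect.not_isSolvable (H ⧸ Subgroup.center H) inferInstance
  obtain ⟨h, hh⟩ := S.nontriv
  exact hh (map_eq_one_of_commute (ρ.comp ι) (fun k l => by
    rw [← map_mul, ← map_mul, Subgroup.mem_center_iff.1 (htop l) k]) h)

/-- The case of odd `p`. -/
theorem Setup.false_odd [Group.IsPerfect H] [Finite V] (S : Setup ι ρ A) (hodd : p ≠ 2)
    {a b : G} (ha : a ∈ A) (hb : b ∈ A) (hna : ¬ Nrm ι a) (hnb : Nrm ι b)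
    (hbk : ∃ k, ¬ Commute (ρ b) (ρ (ι k))) (hfix : ∀ v, ρ b (ρ a v - v) = ρ a v - v) : False := by
  classical
  let e : ZMod p → G := fun i => a ^ i.val
  have heA : ∀ i, e i ∈ A := fun i => pow_mem ha _
  have he1 : ∀ i, e (i + 1) = a * e i := fun i => by
    show a ^ (i + 1).val = a * a ^ i.val
    rw [← pow_succ', ZMod.val_add, ZMod.val_one, ← pow_eq_pow_mod _ (S.exp a ha)]
  have hmov : ∀ i j, i ≠ j → ¬ Nrm ι ((e j)⁻¹ * e i) := by
    intro i j hij hN
    have hne : (i - j).val ≠ 0 := fun h => hij (sub_eq_zero.1 ((ZMod.val_eq_zero _).1 h))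
    have hei : e i = e j * a ^ (i - j).val := by
      show a ^ i.val = a ^ j.val * a ^ (i - j).val
      rw [← pow_add]
      nth_rw 1 [show i = j + (i - j) by abel]
      rw [ZMod.val_add, ← pow_eq_pow_mod _ (S.exp a ha)]
    rw [hei, inv_mul_cancel_left] at hN
    obtain ⟨m, -, hm⟩ := Nat.exists_mul_mod_eq_one_of_coprime
      ((Nat.Prime.coprime_iff_not_dvd hp.out).2 (Nat.not_dvd_of_pos_of_lt
        (Nat.pos_of_ne_zero hne) (ZMod.val_lt _))).symm hp.out.one_lt
    refine hna ?_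
    have := hN.pow ι m
    rwa [← pow_mul, pow_eq_pow_mod _ (S.exp a ha), hm, pow_one] at this
  let φ : ∀ _ : ZMod p, H →* G := fun i => (MulAut.conj (e i)).toMonoidHom.comp ι
  let Φ : (ZMod p → H) →* G := MonoidHom.noncommPiCoprod φ fun i j hij k l =>
    S.commute_conj (heA i) (heA j) (hmov i j hij) k l
  have hΦ : ∀ i k, Φ (Pi.mulSingle i k) = e i * ι k * (e i)⁻¹ := fun i k =>
    MonoidHom.noncommPiCoprod_mulSingle ..
  let τ := ρ.comp Φ
  have hext : ∀ f g : (ZMod p → H) →* G,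
      (∀ i k, f (Pi.mulSingle i k) = g (Pi.mulSingle i k)) → f = g := fun f g h =>
    MonoidHom.ext fun x => Subgroup.pi_mem_of_mulSingle_mem (H := f.eqLocus g) x fun i => h i _
  have hconst : ∀ k, a * Φ (fun _ => k) * a⁻¹ = Φ (fun _ => k) := by
    intro k
    let sh : (ZMod p → H) →* (ZMod p → H) :=
      { toFun := fun f i => f (i - 1), map_one' := rfl, map_mul' := fun _ _ => rfl }
    have h := hext ((MulAut.conj a).toMonoidHom.comp Φ) (Φ.comp sh) fun i x => by
      have hs : sh (Pi.mulSingle i x) = Pi.mulSingle (i + 1) x := funext fun j => by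
        show (Pi.mulSingle i x : ZMod p → H) (j - 1) = _
        rcases eq_or_ne j (i + 1) with rfl | hj
        · simp
        · rw [Pi.mulSingle_eq_of_ne hj, Pi.mulSingle_eq_of_ne]
          exact fun h => hj (sub_eq_iff_eq_add.1 h)
      show a * Φ _ * a⁻¹ = Φ (sh _)
      rw [hs, hΦ, hΦ, he1]
      group
    exact DFunLike.congr_fun h (fun _ => k)
  obtain ⟨β, hβ⟩ := exists_twist ι S.inj hnb
  have hbconst : ∀ k, b * Φ (fun _ => k) * b⁻¹ = Φ (fun _ => β k) := by
    intro k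
    let bc : (ZMod p → H) →* (ZMod p → H) :=
      { toFun := fun f i => β (f i), map_one' := funext fun _ => map_one β
        map_mul' := fun _ _ => funext fun _ => map_mul β _ _ }
    have h := hext ((MulAut.conj b).toMonoidHom.comp Φ) (Φ.comp bc) fun i x => by
      have hs : bc (Pi.mulSingle i x) = Pi.mulSingle i (β x) := funext fun j => by
        show β ((Pi.mulSingle i x : ZMod p → H) j) = _
        rcases eq_or_ne j i with rfl | hj
        · simp
        · simp [Pi.mulSingle_eq_of_ne hj]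
      show b * Φ _ * b⁻¹ = Φ (bc _)
      rw [hs, hΦ, hΦ, ← hβ]
      have hc : b * e i = e i * b := S.comm b hb _ (heA i)
      calc b * (e i * ι x * (e i)⁻¹) * b⁻¹ = (b * e i) * ι x * (b * e i)⁻¹ := by group
        _ = e i * (b * ι x * b⁻¹) * (e i)⁻¹ := by rw [hc]; group
    exact DFunLike.congr_fun h (fun _ => k)
  let δ : H →* Module.End (ZMod p) V :=
    τ.comp { toFun := fun k _ => k, map_one' := rfl, map_mul' := fun _ _ => rfl }
  have hδ : ∀ k, δ k = ρ (Φ fun _ => k) := fun k => rfl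
  have hmulconj : ∀ (g : G) (x : G) (v : V), ρ g (ρ x v) = ρ (g * x * g⁻¹) (ρ g v) := fun g x v => by
    rw [← Module.End.mul_apply, ← map_mul, ← Module.End.mul_apply, ← map_mul, inv_mul_cancel_right]
  have hδα : ∀ k v, ρ a (δ k v) = δ k (ρ a v) := fun k v => by
    rw [hδ, hmulconj a, hconst]
  set U := LinearMap.range (ρ a - 1) with hU
  have hUst : Stable δ U := by
    rintro k _ ⟨v, rfl⟩
    exact ⟨δ k v, by simp [hδα]⟩
  have hL : ∀ k, ∀ u ∈ U, δ k u = u := by
    refine trivial_of_twist S.normal_le δ hUst β ?_ fun k u hu => ?_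
    · obtain ⟨k, hk⟩ := hbk
      refine ⟨k, fun e' => hk (Commute.map (mul_inv_eq_iff_eq_mul.1 ?_) ρ)⟩
      rw [hβ, e']
    · have hbu : ∀ u' ∈ U, ρ b u' = u' := by rintro _ ⟨v, rfl⟩; exact hfix v
      conv_rhs => rw [← hbu _ (hUst k u hu), hδ, hmulconj b, hbconst, hbu u hu]
      rfl
  obtain ⟨h, hh⟩ := S.nontriv
  refine hh (LinearMap.ext fun v => ?_)
  have key := trivial_odd τ hodd (M := ⊤) (ρ a) (by rw [← map_pow, S.exp a ha, map_one])
    (fun i k => by
      show ρ a * ρ (Φ (Pi.mulSingle i k)) = ρ (Φ (Pi.mulSingle (i + 1) k)) * ρ a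
      rw [← map_mul, ← map_mul, hΦ, hΦ, he1]
      congr 1
      group)
    (fun _ _ _ _ => Submodule.mem_top) (fun _ _ => Submodule.mem_top)
    (fun k v _ => hL k _ ⟨v, rfl⟩) h v Submodule.mem_top
  rw [copy_apply] at key
  have e0 : τ (Pi.mulSingle 0 h) = ρ (ι h) := by
    show ρ (Φ _) = _
    rw [hΦ]
    simp [e]
  rw [← e0]
  exact key

/-- The case `p = 2`. -/
theorem Setup.false_even [Group.IsPerfect H] [Finite V] {V2 : p = 2} (S : Setup ι ρ A)
    (B Γ : Subgroup G) [Finite B] (hBA : B ≤ A) (hΓB : Γ ≤ B) {a : G} (ha : a ∈ A)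
    (hag : ∀ g ∈ Γ, ¬ Nrm ι (a * g)) (hBΓ : ∀ b ∈ B, b ∈ Γ ∨ a ∈ B ∧ a * b ∈ Γ)
    (hdeg : a ∈ B ∨ ∃ g ∈ Γ, Nrm ι g ∧ ∃ k, ¬ Commute (ρ g) (ρ (ι k)))
    (h1 : ∀ b ∈ B, ∀ a ∈ A, ∀ v, ρ b (ρ a v - v) = ρ a v - v)
    (h3 : ∀ C ≤ B, Nat.card C * Nat.card {v : V // ∀ c ∈ C, ρ c v = v} ≤
      Nat.card B * Nat.card {v : V // ∀ b ∈ B, ρ b v = v}) : False := by
  subst V2
  have hΓA := hΓB.trans hBA
  have hsq : ∀ x ∈ A, x⁻¹ = x := fun x hx => inv_eq_of_mul_eq_one_left (by rw [← sq]; exact S.exp x hx)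
  have hgfix : ∀ g ∈ Γ, ∀ v, ρ g (ρ a v - v) = ρ a v - v := fun g hg => h1 g (hΓB hg) a ha
  -- the group generated by the `Γ`-conjugates
  set gens : Set G := {x | ∃ g ∈ Γ, ∃ k, g * ι k * g⁻¹ = x} with hgens
  set P := Subgroup.closure gens with hP
  have hιP : ∀ k, ι k ∈ P := fun k => Subgroup.subset_closure ⟨1, one_mem _, k, by simp⟩
  have hΓP : ∀ g ∈ Γ, ∀ x ∈ P, g * x * g⁻¹ ∈ P := by
    intro g hg x hx
    have hle : P ≤ P.comap (MulAut.conj g).toMonoidHom := (Subgroup.closure_le _).2 (by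
      rintro _ ⟨g', hg', k, rfl⟩
      refine Subgroup.subset_closure ⟨g * g', mul_mem hg hg', k, ?_⟩
      simp [mul_assoc])
    exact hle hx
  have hPperf : Group.IsPerfect P := by
    have hle : P ≤ ⁅P, P⁆ := (Subgroup.closure_le _).2 (by
      rintro _ ⟨g, hg, k, rfl⟩
      have hk : commutator H ≤ ⁅P, P⁆.comap ((MulAut.conj g).toMonoidHom.comp ι) := by
        rw [commutator_eq_closure, Subgroup.closure_le]
        rintro _ ⟨x, y, rfl⟩
        rw [SetLike.mem_coe, Subgroup.mem_comap, map_commutatorElement]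
        exact Subgroup.commutator_mem_commutator (hΓP g hg _ (hιP x)) (hΓP g hg _ (hιP y))
      rw [Group.IsPerfect.commutator_eq_top] at hk
      exact hk (Subgroup.mem_top k))
    refine Group.isPerfect_def.2 (Subgroup.map_injective P.subtype_injective ?_)
    rw [commutator_def, Subgroup.map_commutator, ← MonoidHom.range_eq_map, Subgroup.range_subtype]
    exact le_antisymm (Subgroup.commutator_le_self P) hle
  have hcommP : ∀ x ∈ P, ∀ y ∈ P, Commute x (a * y * a⁻¹) := by
    have hgen : ∀ x ∈ gens, ∀ y ∈ gens, Commute x (a * y * a⁻¹) := by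
      rintro _ ⟨g, hg, k, rfl⟩ _ ⟨g', hg', l, rfl⟩
      rw [show a * (g' * ι l * g'⁻¹) * a⁻¹ = (a * g') * ι l * (a * g')⁻¹ by group]
      refine S.commute_conj (hΓA hg) (mul_mem ha (hΓA hg')) ?_ k l
      rw [mul_inv_rev, hsq a ha, hsq g' (hΓA hg'), mul_assoc,
        S.comm g' (hΓA hg') (a * g) (mul_mem ha (hΓA hg)), mul_assoc]
      exact hag _ (mul_mem hg hg')
    intro x hx y hy
    have h0 : ∀ x ∈ gens, ∀ y ∈ P, Commute x (a * y * a⁻¹) := by
      intro x hx
      have hle : P ≤ (Subgroup.centralizer ({x} : Set G)).comap (MulAut.conj a).toMonoidHom :=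
        (Subgroup.closure_le _).2 fun y hy => by
          show a * y * a⁻¹ ∈ Subgroup.centralizer ({x} : Set G)
          rw [Subgroup.mem_centralizer_iff]
          rintro _ rfl
          exact (hgen _ hx y hy).eq
      intro y hy
      exact Subgroup.mem_centralizer_iff.1 (hle hy) x rfl
    have hle : P ≤ Subgroup.centralizer ({a * y * a⁻¹} : Set G) := (Subgroup.closure_le _).2 fun z hz => by
      rw [SetLike.mem_coe, Subgroup.mem_centralizer_iff]
      rintro _ rfl
      exact (h0 z hz y hy).eq.symm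
    exact (Subgroup.mem_centralizer_iff.1 (hle hx) _ rfl).symm
  let σ : P →* Module.End (ZMod 2) V := ρ.comp P.subtype
  let σ' : P →* Module.End (ZMod 2) V := ρ.comp ((MulAut.conj a).toMonoidHom.comp P.subtype)
  have hσσ' : ∀ x y, Commute (σ x) (σ' y) := fun x y => (hcommP x x.2 y y.2).map ρ
  have hmulconj : ∀ (g : G) (x : G) (v : V), ρ g (ρ x v) = ρ (g * x * g⁻¹) (ρ g v) := fun g x v => by
    rw [← Module.End.mul_apply, ← map_mul, ← Module.End.mul_apply, ← map_mul, inv_mul_cancel_right]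
  have haa : ∀ x : G, a * (a * x * a⁻¹) * a⁻¹ = x := fun x => by
    rw [show a * (a * x * a⁻¹) * a⁻¹ = (a * a) * x * (a * a)⁻¹ by group, ← sq, S.exp a ha]; simp
  have hασ : ∀ (x : P) v, ρ a (σ x v) = σ' x (ρ a v) := fun x v => hmulconj a x v
  have hασ' : ∀ (x : P) v, ρ a (σ' x v) = σ x (ρ a v) := fun x v => by
    show ρ a (ρ (a * x * a⁻¹) v) = ρ (x : G) (ρ a v)
    rw [hmulconj a, haa]
  let δ : P →* Module.End (ZMod 2) V :=
    { toFun := fun x => σ x * σ' x
      map_one' := by simp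
      map_mul' := fun x y => by rw [map_mul, map_mul, ((hσσ' y x)).mul_mul_mul_comm] }
  have hδ : ∀ x v, δ x v = σ x (σ' x v) := fun x v => rfl
  have hδα : ∀ x v, ρ a (δ x v) = δ x (ρ a v) := fun x v => by
    rw [hδ, hασ, hασ', hδ]
    exact (LinearMap.congr_fun (hσσ' x x).eq _).symm
  set U := LinearMap.range (ρ a - 1) with hU
  have hUst : Stable δ U := by
    rintro k _ ⟨v, rfl⟩
    exact ⟨δ k v, by simp [hδα]⟩
  have hΓfix : ∀ g ∈ Γ, ∀ u ∈ U, ρ g u = u := by
    rintro g hg _ ⟨v, rfl⟩; exact hgfix g hg v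
  have hgδ : ∀ g (hg : g ∈ Γ) (x : P) v,
      ρ g (δ x v) = δ ⟨g * x * g⁻¹, hΓP g hg x x.2⟩ (ρ g v) := by
    intro g hg x v
    have hc : g * a = a * g := S.comm g (hΓA hg) a ha
    show ρ g (ρ (x : G) (ρ (a * x * a⁻¹) v)) =
      ρ (g * x * g⁻¹) (ρ (a * (g * x * g⁻¹) * a⁻¹) (ρ g v))
    rw [hmulconj g, hmulconj g, show g * (a * x * a⁻¹) * g⁻¹ = (g * a) * x * (g * a)⁻¹ by group, hc,
      show (a * g) * x * (a * g)⁻¹ = a * (g * x * g⁻¹) * a⁻¹ by group]
  have hδU : ∀ g (hg : g ∈ Γ) (x : P), ∀ u ∈ U, δ ⟨g * x * g⁻¹, hΓP g hg x x.2⟩ u = δ x u := by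
    intro g hg x u hu
    conv_rhs => rw [← hΓfix g hg _ (hUst x u hu), hgδ g hg, hΓfix g hg u hu]
  let ιP : H →* P := ι.codRestrict P hιP
  -- reduce the invariance of `U` to the generators
  have hlift : ∀ M : Submodule (ZMod 2) V, Stable δ M → (∀ g ∈ Γ, ∀ u ∈ M, ρ g u = u) →
      (∀ k, ∀ u ∈ M, δ (ιP k) u = u) → ∀ x, ∀ u ∈ M, δ x u = u := by
    intro M hM hMΓ hk x u hu
    have hle : P ≤ ((⨅ u ∈ M, (MulAction.stabilizer (Module.End (ZMod 2) V)ˣ u).comap δ.toHomUnits :
        Subgroup P)).map P.subtype := by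
      refine (Subgroup.closure_le _).2 ?_
      rintro _ ⟨g, hg, k, rfl⟩
      refine ⟨⟨g * ι k * g⁻¹, hΓP g hg _ (hιP k)⟩, ?_, rfl⟩
      simp only [SetLike.mem_coe, Subgroup.mem_iInf, Subgroup.mem_comap, MulAction.mem_stabilizer_iff]
      intro u hu
      show δ ⟨g * ι k * g⁻¹, _⟩ u = u
      have h := hgδ g hg (ιP k) u
      rw [hMΓ g hg u hu, hk k u hu, hMΓ g hg u hu] at h
      exact h.symm
    obtain ⟨y, hy, hyx⟩ := hle x.2
    obtain rfl : y = x := Subtype.ext hyx
    simp only [SetLike.mem_coe, Subgroup.mem_iInf, Subgroup.mem_comap, MulAction.mem_stabilizer_iff] at hy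
    exact hy u hu
  -- the submodule `W₀`
  let fixΓ : Submodule (ZMod 2) V := fixed (ρ.comp Γ.subtype)
  have hmemfix : ∀ v, v ∈ fixΓ ↔ ∀ g ∈ Γ, ρ g v = v := fun v => by
    rw [mem_fixed]; exact ⟨fun h g hg => h ⟨g, hg⟩, fun h g => h g g.2⟩
  obtain ⟨k₀, hk₀⟩ := S.nontriv
  obtain ⟨W₀, hW₀σ, hW₀α, ⟨x₀, v₀, hv₀, hmv₀⟩, hW₀L⟩ : ∃ W₀ : Submodule (ZMod 2) V,
      Stable σ W₀ ∧ (∀ v ∈ W₀, ρ a v ∈ W₀) ∧ (∃ x, ∃ v ∈ W₀, σ x v ≠ v) ∧
      ((∀ x, ∀ u ∈ U, δ x u = u) ∨ (a ∈ B ∧ ∀ v ∈ W₀, ∀ g ∈ Γ, ρ g v = v)) := by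
    by_cases hall : ∀ g ∈ Γ, ∀ k, Commute (ρ g) (ρ (ι k))
    · have haB : a ∈ B := hdeg.resolve_right fun ⟨g, hg, _, k, hk⟩ => hk (hall g hg k)
      have hgx : ∀ g ∈ Γ, ∀ (x : P), Commute (ρ g) (σ x) := by
        intro g hg x
        have hall' : ∀ g' ∈ Γ, ∀ k, Commute (ρ g) (ρ (g' * ι k * g'⁻¹)) := fun g' hg' k => by
          rw [map_mul, map_mul]
          exact (((Commute.map (S.comm g (hΓA hg) g' (hΓA hg') : Commute g g') ρ).mul_right
            (hall g hg k)).mul_right (Commute.map (S.comm g (hΓA hg) g'⁻¹ (inv_mem (hΓA hg')) :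
              Commute g g'⁻¹) ρ))
        obtain ⟨x, hx⟩ := x
        induction hx using Subgroup.closure_induction with
        | mem x hx => obtain ⟨g', hg', k, rfl⟩ := hx; exact hall' g' hg' k
        | one => show Commute (ρ g) (ρ 1); rw [map_one]; exact Commute.one_right _
        | mul x y _ _ hx hy => show Commute (ρ g) (ρ (x * y)); rw [map_mul]; exact hx.mul_right hy
        | inv x _ hx =>
          show Commute (ρ g) (ρ x⁻¹)
          have hu : Commute (ρ.toHomUnits g) (ρ.toHomUnits x) := Units.ext hx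
          have h := hu.inv_right
          rw [← map_inv] at h
          exact h.map (Units.coeHom _)
      have hgx' : ∀ g ∈ Γ, ∀ (x : P) v, ρ g (σ' x v) = σ' x (ρ g v) := fun g hg x v => by
        have e : ∀ u, ρ a (ρ a u) = u := fun u => by
          rw [← Module.End.mul_apply, ← map_mul, ← sq, S.exp a ha, map_one]; rfl
        have h0 : ∀ u, σ' x u = ρ a (σ x (ρ a u)) := fun u => by rw [hασ, e]
        rw [h0, h0, ← S.apply_comm ha (hΓA hg), ← Module.End.mul_apply (f := ρ g), (hgx g hg x).eq,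
          Module.End.mul_apply, ← S.apply_comm ha (hΓA hg)]
      refine ⟨fixΓ, fun x v hv => ?_, fun v hv => ?_, ?_, Or.inr ⟨haB, fun v hv => (hmemfix v).1 hv⟩⟩
      · rw [hmemfix] at hv ⊢
        intro g hg
        conv_rhs => rw [← hv g hg]
        exact LinearMap.congr_fun (hgx g hg x).eq v
      · rw [hmemfix] at hv ⊢
        intro g hg
        rw [← S.apply_comm ha (hΓA hg), hv g hg]
      · by_contra hc
        push Not at hc
        have hsub : ∀ (x : P) v, σ x v - v ∈ fixΓ := by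
          intro x v
          rw [hmemfix]
          intro g hg
          have htr : ∀ y, ∀ u ∈ LinearMap.range (ρ g - 1), σ y u = u := by
            refine trivial_of_eq σ σ' hσσ' ?_ ?_
            · rintro y _ ⟨v, rfl⟩
              refine ⟨σ y v, ?_⟩
              simp only [LinearMap.sub_apply, Module.End.one_apply, map_sub]
              congr 1
              exact LinearMap.congr_fun (hgx g hg y).eq v
            · rintro y _ ⟨v, rfl⟩
              have hfu : ∀ w, ρ a (ρ g w - w) = ρ g w - w := fun w =>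
                S.fix_symm ha (hΓA hg) (h1 g (hΓB hg) a ha w)
              show σ' y (ρ g v - v) = σ y (ρ g v - v)
              have h := hασ y (ρ g v - v)
              rw [hfu] at h
              rw [← h, map_sub, ← Module.End.mul_apply, ← (hgx g hg y).eq, Module.End.mul_apply, hfu]
          have h := htr x _ ⟨v, rfl⟩
          simp only [LinearMap.sub_apply, Module.End.one_apply, map_sub] at h
          have e := LinearMap.congr_fun (hgx g hg x).eq v
          simp only [Module.End.mul_apply] at e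
          rw [map_sub, e, sub_eq_sub_iff_sub_eq_sub.1 h]
        exact hk₀ (LinearMap.ext fun v => trivial_of_sub_mem σ (M := ⊤) (fun _ _ _ => Submodule.mem_top)
          (fun u hu y => hc y u hu) (fun y u _ => hsub y u) (ιP k₀) v Submodule.mem_top)
    · refine ⟨⊤, fun _ _ _ => Submodule.mem_top, fun _ _ => Submodule.mem_top, ?_, Or.inl ?_⟩
      · by_contra hc
        push Not at hc
        exact hk₀ (LinearMap.ext fun v => hc (ιP k₀) v Submodule.mem_top)
      · refine hlift U hUst hΓfix ?_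
        push Not at hall
        obtain ⟨g, hg, k₁, hk₁⟩ := hall
        by_cases hgN : Nrm ι g
        · obtain ⟨β, hβ⟩ := exists_twist ι S.inj hgN
          refine trivial_of_twist S.normal_le (δ.comp ιP) (fun k => hUst _) β
            ⟨k₁, fun e => hk₁ (Commute.map (mul_inv_eq_iff_eq_mul.1 (by rw [hβ, e])) ρ)⟩ ?_
          intro k u hu
          show δ (ιP (β k)) u = δ (ιP k) u
          rw [show ιP (β k) = ⟨g * ι k * g⁻¹, hΓP g hg _ (hιP k)⟩ from Subtype.ext (hβ k).symm]
          exact hδU g hg (ιP k) u hu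
        · let c : H →* P := ((MulAut.conj g).toMonoidHom.comp ι).codRestrict P
            fun k => hΓP g hg _ (hιP k)
          have hxy : ∀ k l, Commute ((ιP k : P)) (c l) := fun k l => Subtype.ext (by
            exact ((S.dich g (hΓA hg)).resolve_left hgN l k).symm.eq)
          exact trivial_of_eq (δ.comp ιP) (δ.comp c) (fun k l => (hxy k l).map δ) (fun k => hUst _)
            (fun k u hu => hδU g hg (ιP k) u hu)
  -- a minimal submodule
  obtain ⟨W, ⟨hWW₀, hWσ, hWα, hWne⟩, hWmin⟩ := exists_minimal_of_wellFoundedLT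
    (fun W : Submodule (ZMod 2) V => W ≤ W₀ ∧ Stable σ W ∧ (∀ v ∈ W, ρ a v ∈ W) ∧
      ∃ x, ∃ v ∈ W, σ x v ≠ v) ⟨W₀, le_rfl, hW₀σ, hW₀α, x₀, v₀, hv₀, hmv₀⟩
  have hWsub : ∀ T : Submodule (ZMod 2) V, T ≤ W → Stable σ T → (∀ v ∈ T, ρ a v ∈ T) → T ≠ W →
      ∀ x, ∀ v ∈ T, σ x v = v := by
    intro T hTW hT1 hT2 hne
    by_contra hc
    push Not at hc
    exact hne (le_antisymm hTW (hWmin ⟨hTW.trans hWW₀, hT1, hT2, hc⟩ hTW))
  have hWσ' : Stable σ' W := by
    intro x v hv
    have h := hWα _ (hWσ x _ (hWα v hv))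
    rw [hασ] at h
    have e : ρ a (ρ a v) = v := by rw [← Module.End.mul_apply, ← map_mul, ← sq, S.exp a ha, map_one]; rfl
    rwa [e] at h
  have e2 : ∀ v, ρ a (ρ a v) = v := fun v => by
    rw [← Module.End.mul_apply, ← map_mul, ← sq, S.exp a ha, map_one]; rfl
  have hWΓ : ∀ g : Γ, ∀ v ∈ W, ρ g v ∈ W := by
    obtain ⟨v₁, hv₁, x₁, hx₁⟩ := exists_apply_sub σ σ' (ρ a) hWσ
      (fun x => LinearMap.ext (hασ x)) hσσ' hWne
    set w := ρ a v₁ - v₁ with hw
    have hwW : w ∈ W := sub_mem (hWα _ hv₁) hv₁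
    have hαw : ρ a w = w := by rw [hw, map_sub, e2, ← neg_eq_self' (ρ a v₁ - v₁), neg_sub]
    have hmoved : σ x₁ w ≠ w := fun h => hx₁.elim (fun h' => h' h) fun h' => h' (by
      have h'' := congrArg (ρ a) h
      rwa [hασ, hαw] at h'')
    let P₀ := Submodule.span (ZMod 2) ((Set.range fun x => σ x w) ∪ Set.range fun x => σ' x w)
    let T := Submodule.span (ZMod 2) (Set.range fun x : P × P => σ x.1 (σ' x.2 w))
    have hTe : T = W := by
      have hTW : T ≤ W := Submodule.span_le.2 (by rintro _ ⟨x, rfl⟩; exact hWσ _ _ (hWσ' _ _ hwW))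
      by_contra hne
      refine hmoved (hWsub T hTW (fun y v hv => ?_) (fun v hv => ?_) hne x₁ w
        (Submodule.subset_span ⟨(1, 1), by simp⟩))
      · refine Submodule.span_le (p := T.comap (σ y)) |>.2 ?_ hv
        rintro _ ⟨⟨x, z⟩, rfl⟩
        exact Submodule.subset_span ⟨(y * x, z), by simp⟩
      · refine Submodule.span_le (p := T.comap (ρ a)) |>.2 ?_ hv
        rintro _ ⟨⟨x, z⟩, rfl⟩
        refine Submodule.subset_span ⟨(z, x), ?_⟩
        show σ z (σ' x w) = ρ a (σ x (σ' z w))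
        rw [hασ, hασ', hαw]
        exact LinearMap.congr_fun (hσσ' z x).eq w
    intro g v hv
    rw [← hTe] at hv
    refine Submodule.span_le (p := W.comap (ρ g)) |>.2 ?_ hv
    rintro _ ⟨⟨x, z⟩, rfl⟩
    show ρ g (ρ (x : G) (ρ (a * z * a⁻¹) w)) ∈ W
    rw [hmulconj (g : G), hmulconj (g : G), hgfix g g.2 v₁,
      show (g : G) * (a * z * a⁻¹) * (g : G)⁻¹ = ((g : G) * a) * z * ((g : G) * a)⁻¹ by group,
      S.comm g (hΓA g.2) a ha,
      show (a * g) * z * (a * g)⁻¹ = a * (g * z * (g : G)⁻¹) * a⁻¹ by group]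
    exact hWσ ⟨_, hΓP g g.2 x x.2⟩ _ (hWσ' ⟨_, hΓP g g.2 z z.2⟩ _ hwW)
  have hWB : ∀ b : B, ∀ v ∈ W, ρ b v ∈ W := by
    intro b v hv
    rcases hBΓ b b.2 with h | ⟨-, h⟩
    · exact hWΓ ⟨b, h⟩ v hv
    · have h' := hWα _ (hWΓ ⟨_, h⟩ v hv)
      simp only [map_mul, Module.End.mul_apply, e2] at h'
      exact h'
  let γ := restrictHom (ρ.comp Γ.subtype) W hWΓ
  let γB := restrictHom (ρ.comp B.subtype) W hWB
  let αW : Module.End (ZMod 2) W := (ρ a).restrict hWα
  have : Finite (Module.End (ZMod 2) W) := Finite.of_injective (fun f => (f : W → W)) DFunLike.coe_injective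
  have hrange : (Set.range γB).ncard ≤ 2 * (Set.range γ).ncard := by
    have hsub : Set.range γB ⊆ Set.range γ ∪ (fun f => αW * f) '' Set.range γ := by
      rintro _ ⟨b, rfl⟩
      rcases hBΓ b b.2 with h | ⟨-, h⟩
      · exact Or.inl ⟨⟨b, h⟩, rfl⟩
      · refine Or.inr ⟨_, ⟨⟨_, h⟩, rfl⟩, LinearMap.ext fun v => Subtype.ext ?_⟩
        show ρ a (ρ (a * b) v) = ρ b v
        rw [map_mul, Module.End.mul_apply, e2]
    have hfin : (Set.range γ).Finite := Set.toFinite _
    refine (Set.ncard_le_ncard hsub (Set.toFinite _)).trans ((Set.ncard_union_le _ _).trans ?_)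
    have := Set.ncard_image_le (f := fun f => αW * f) hfin
    omega
  have hcard := card_le_range ρ B h3 W hWB
  -- the diagonal fixes `(α - 1) W`
  have hLW : ∀ x, ∀ v ∈ W, δ x (ρ a v - v) = ρ a v - v := by
    rcases hW₀L with hL | ⟨haB, hΓW⟩
    · exact fun x v _ => hL x _ ⟨v, rfl⟩
    intro x v hv
    have htriv : (Set.range γ).ncard ≤ 1 := (Set.ncard_le_one (Set.toFinite _)).2 (by
      rintro _ ⟨g, rfl⟩ _ ⟨g', rfl⟩
      refine LinearMap.ext fun u => Subtype.ext ?_
      show ρ g u = ρ g' u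
      rw [hΓW u (hWW₀ u.2) g g.2, hΓW u (hWW₀ u.2) g' g'.2])
    let n : W →+ W := (αW - 1).toAddMonoidHom
    have hker : Nat.card {v : W // ∀ b ∈ B, ρ b v = (v : V)} ≤ Nat.card n.ker :=
      Nat.card_le_card_of_injective (fun u => ⟨u.1, by
        show αW u.1 - u.1 = 0
        exact sub_eq_zero.2 (Subtype.ext (u.2 a haB))⟩)
        (fun u u' h => Subtype.ext (congrArg Subtype.val h :))
    have hW2 : Nat.card W ≤ 2 * Nat.card n.ker :=
      hcard.trans (Nat.mul_le_mul (hrange.trans (by omega)) hker)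
    have hr : Nat.card n.range ≤ 2 := by
      have h := AddSubgroup.card_eq_card_quotient_mul_card_addSubgroup n.ker
      rw [Nat.card_congr (QuotientAddGroup.quotientKerEquivRange n).toEquiv] at h
      rw [h] at hW2
      exact Nat.le_of_mul_le_mul_right hW2 Nat.card_pos
    set u : W := n ⟨v, hv⟩ with hu
    by_cases hu0 : ρ a v - v = 0
    · rw [hu0, map_zero]
    have hu1 : n ⟨δ x v, hWσ _ _ (hWσ' _ _ hv)⟩ = u := by
      by_contra hne
      have h0 : (u : W) ≠ 0 := fun h => hu0 (congrArg Subtype.val h :)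
      have h2 : n ⟨δ x v, hWσ _ _ (hWσ' _ _ hv)⟩ ≠ 0 := by
        intro h
        have h' : ρ a (δ x v) - δ x v = 0 := congrArg Subtype.val h
        rw [hδα, ← map_sub] at h'
        refine hu0 ?_
        have h'' := congrArg (δ x⁻¹) h'
        rwa [inv_apply_apply, map_zero] at h''
      classical
      let _ : Fintype n.range := Fintype.ofFinite _
      let z₁ : n.range := ⟨u, _, rfl⟩
      let z₂ : n.range := ⟨_, ⟨δ x v, hWσ _ _ (hWσ' _ _ hv)⟩, rfl⟩
      have hc3 : ({0, z₁, z₂} : Finset n.range).card = 3 := Finset.card_eq_three.2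
        ⟨0, z₁, z₂, fun h => h0 (congrArg Subtype.val h :).symm,
          fun h => h2 (congrArg Subtype.val h :).symm, fun h => hne (congrArg Subtype.val h :).symm, rfl⟩
      have := Finset.card_le_univ ({0, z₁, z₂} : Finset n.range)
      rw [hc3, ← Nat.card_eq_fintype_card] at this
      omega
    have h' : ρ a (δ x v) - δ x v = ρ a v - v := congrArg Subtype.val hu1
    rw [map_sub, ← hδα]
    exact h'
  -- the count
  have hcount : Nat.card W ≤ 2 * (Set.range γ).ncard *
        Nat.card {v : W // αW v = v ∧ ∀ g, γ g v = v} ∨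
      (∃ g v, γ g v ≠ v) ∧ Nat.card W ≤ 2 * (Set.range γ).ncard *
        Nat.card {v : W // ∀ g, γ g v = v} := by
    by_cases htriv : ∃ g v, γ g v ≠ v
    · exact Or.inr ⟨htriv, hcard.trans (Nat.mul_le_mul hrange
        (card_subtype_le fun v hv g => Subtype.ext (hv g (hΓB g.2))))⟩
    push Not at htriv
    refine Or.inl (hcard.trans (Nat.mul_le_mul hrange
      (card_subtype_le fun v hv => ⟨Subtype.ext (hv a ?_), fun g => Subtype.ext (hv g (hΓB g.2))⟩)))
    refine hdeg.resolve_right ?_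
    rintro ⟨g, hg, hgN, k, hk⟩
    obtain ⟨β, hβ⟩ := exists_twist ι S.inj hgN
    have hgW : ∀ g ∈ Γ, ∀ u ∈ W, ρ g u = u := fun g' hg' u hu =>
      congrArg Subtype.val (htriv ⟨g', hg'⟩ ⟨u, hu⟩)
    have hι : ∀ l, ∀ u ∈ W, σ (ιP l) u = u := trivial_of_twist S.normal_le (σ.comp ιP)
      (fun l => hWσ _) β ⟨k, fun e => hk (Commute.map (mul_inv_eq_iff_eq_mul.1 (by rw [hβ, e])) ρ)⟩
      fun l u hu => by
        show ρ (ι (β l)) u = ρ (ι l) u
        rw [← hβ]
        conv_rhs => rw [← hgW g hg (ρ (ι l) u) (hWσ (ιP l) u hu)]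
        show ρ (g * ι l * g⁻¹) u = ρ g (ρ (ι l) u)
        rw [hmulconj g, hgW g hg u hu]
    obtain ⟨⟨x, hx⟩, u, hu, hxu⟩ := hWne
    refine hxu ?_
    have hle : P ≤ (⨅ u ∈ W, (MulAction.stabilizer (Module.End (ZMod 2) V)ˣ u).comap ρ.toHomUnits) := by
      refine (Subgroup.closure_le _).2 ?_
      rintro _ ⟨g', hg', l, rfl⟩
      simp only [SetLike.mem_coe, Subgroup.mem_iInf, Subgroup.mem_comap, MulAction.mem_stabilizer_iff]
      intro u hu
      show ρ (g' * ι l * g'⁻¹) u = u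
      have h := hmulconj g' (ι l) u
      rw [hgW g' hg' u hu, show ρ (ι l) u = u from hι l u hu, hgW g' hg' u hu] at h
      exact h.symm
    have := hle hx
    simp only [Subgroup.mem_iInf, Subgroup.mem_comap, MulAction.mem_stabilizer_iff] at this
    exact this u hu
  refine false_two (restrictHom σ W hWσ) (restrictHom σ' W hWσ') αW
    (LinearMap.ext fun v => Subtype.ext (e2 v)) (fun x => LinearMap.ext fun v => Subtype.ext (hασ x v))
    (fun x y => LinearMap.ext fun v => Subtype.ext (LinearMap.congr_fun (hσσ' x y).eq v))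
    ?_ ?_ (fun x v => Subtype.ext (hLW x v v.2)) γ
    (fun g => LinearMap.ext fun v => Subtype.ext (S.apply_comm (hΓA g.2) ha v))
    (fun g v => Subtype.ext (hgfix g g.2 v))
    (fun g x => ⟨⟨g * x * (g : G)⁻¹, hΓP g g.2 x x.2⟩, LinearMap.ext fun v => Subtype.ext
      (hmulconj g x v)⟩)
    (fun g g' v => Subtype.ext (h1 g (hΓB g.2) g' (hΓA g'.2) v)) hcount
  · obtain ⟨x, v, hv, hxv⟩ := hWne
    exact ⟨x, ⟨v, hv⟩, fun h => hxv (congrArg Subtype.val h)⟩
  · intro T hT1 hT2 hTne x v hv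
    refine Subtype.ext (hWsub (T.map W.subtype) (Submodule.map_subtype_le W T) ?_ ?_ ?_ x v ⟨v, hv, rfl⟩)
    · rintro y _ ⟨u, hu, rfl⟩
      exact ⟨_, hT1 y u hu, rfl⟩
    · rintro _ ⟨u, hu, rfl⟩
      exact ⟨_, hT2 u hu, rfl⟩
    · intro e
      refine hTne (Submodule.map_injective_of_injective W.subtype_injective ?_)
      rw [e, Submodule.map_subtype_top]

/-- A best offender normalises the quasisimple group. -/
theorem Setup.nrm [Group.IsPerfect H] [Finite H] [Finite V] [Finite G] (S : Setup ι ρ A)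
    (hbest : ∀ C ≤ A, Nat.card C * Nat.card {v : V // ∀ c ∈ C, ρ c v = v} ≤
      Nat.card A * Nat.card {v : V // ∀ a ∈ A, ρ a v = v})
    (hfull : Submodule.span (ZMod p)
      {w | ∃ g ∈ A, ∃ k v, ρ (g * ι k * g⁻¹) v - v = w} = ⊤) :
    ∀ a ∈ A, Nrm ι a := by
  intro a ha
  by_contra hna
  have hsep : ∀ k l, Commute (ρ (a * ι k * a⁻¹)) (ρ (ι l)) := fun k l =>
    ((S.dich a ha).resolve_left hna k l).map ρ
  have hane : ρ a ≠ 1 := fun h => by
    obtain ⟨k, hk⟩ := S.nontriv
    refine hk (map_eq_one_of_commute (ρ.comp ι) (fun x y => ?_) k)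
    have hai : ρ a⁻¹ = 1 := by
      rw [show ρ a⁻¹ = ρ a * ρ a⁻¹ by rw [h, one_mul], ← map_mul, mul_inv_cancel, map_one]
    have := hsep x y
    rw [map_mul, map_mul, h, hai, one_mul, mul_one] at this
    exact this.eq
  obtain ⟨B, hBA, h1, ⟨b₀, hb₀, hb₀ne⟩, h3⟩ :=
    exists_quadratic_offender ρ A S.comm S.exp hbest ⟨a, ha, hane⟩
  -- some element of `B` does not centralise
  obtain ⟨b, hb, k, hbk⟩ : ∃ b ∈ B, ∃ k, ¬ Commute (ρ b) (ρ (ι k)) := by
    by_contra hc
    push Not at hc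
    refine hb₀ne (LinearMap.ext fun v => ?_)
    have hfu : ∀ g ∈ A, ∀ u, ρ g (ρ b₀ u - u) = ρ b₀ u - u := fun g hg u =>
      S.fix_symm hg (hBA hb₀) (h1 b₀ hb₀ g hg u)
    let M := LinearMap.range (ρ b₀ - 1)
    have hst : Stable (ρ.comp ι) M := by
      rintro l _ ⟨u, rfl⟩
      refine ⟨ρ (ι l) u, ?_⟩
      simp only [MonoidHom.comp_apply, LinearMap.sub_apply, Module.End.one_apply, map_sub]
      congr 1
      exact LinearMap.congr_fun (hc b₀ hb₀ l).eq u
    have hAM : ∀ g ∈ A, ∀ u ∈ M, ρ g u = u := by rintro g hg _ ⟨u, rfl⟩; exact hfu g hg u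
    have hai : ∀ g ∈ A, ∀ l, ∀ u ∈ M, ρ (g * ι l * g⁻¹) u = ρ (ι l) u := fun g hg l u hu => by
      rw [map_mul, map_mul, Module.End.mul_apply, Module.End.mul_apply, hAM _ (inv_mem hg) u hu,
        hAM g hg (ρ (ι l) u) (hst l u hu)]
    have htriv := trivial_of_eq (ρ.comp ι) (ρ.comp ((MulAut.conj a).toMonoidHom.comp ι))
      (fun x y => (hsep y x).symm) hst (fun l u hu => hai a ha l u hu)
    have hle : Submodule.span (ZMod p) {w | ∃ g ∈ A, ∃ k v, ρ (g * ι k * g⁻¹) v - v = w} ≤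
        LinearMap.ker (ρ b₀ - 1) := Submodule.span_le.2 (by
      rintro _ ⟨g, hg, l, u, rfl⟩
      show ρ b₀ (ρ (g * ι l * g⁻¹) u - u) - (ρ (g * ι l * g⁻¹) u - u) = 0
      have hcomm : Commute (ρ b₀) (ρ (g * ι l * g⁻¹)) := by
        rw [map_mul, map_mul]
        exact ((Commute.map (S.comm b₀ (hBA hb₀) g hg : Commute b₀ g) ρ).mul_right (hc b₀ hb₀ l)).mul_right
          (Commute.map (S.comm b₀ (hBA hb₀) g⁻¹ (inv_mem hg) : Commute b₀ g⁻¹) ρ)
      rw [map_sub, ← Module.End.mul_apply, hcomm.eq, Module.End.mul_apply]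
      have h := hai g hg l _ (⟨u, rfl⟩ : (ρ b₀ - 1) u ∈ M)
      rw [show ρ (ι l) ((ρ b₀ - 1) u) = (ρ b₀ - 1) u from htriv l _ ⟨u, rfl⟩] at h
      simp only [LinearMap.sub_apply, Module.End.one_apply, map_sub] at h
      rw [sub_sub_sub_comm, h, sub_self])
    exact sub_eq_zero.1 (hle (hfull.ge Submodule.mem_top : v ∈ _))
  rcases eq_or_ne p 2 with hp2 | hodd
  swap
  · have hN : ∀ c ∈ B, Nrm ι c := fun c hc =>
      S.nrm_of_quadratic hodd (hBA hc) fun v => h1 c hc c (hBA hc) v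
    exact S.false_odd hodd ha (hBA hb) hna (hN b hb) ⟨k, hbk⟩ fun v => h1 b hb a ha v
  subst hp2
  by_cases hmove : ∃ c ∈ B, ¬ Nrm ι c
  · obtain ⟨c, hc, hnc⟩ := hmove
    let NB : Subgroup G :=
      { carrier := {x | x ∈ B ∧ Nrm ι x}
        one_mem' := ⟨one_mem _, nrm_one ι⟩
        mul_mem' := fun hx hy => ⟨mul_mem hx.1 hy.1, hx.2.mul ι hy.2⟩
        inv_mem' := fun {x} hx => by
          rw [Set.mem_setOf_eq, inv_eq_of_mul_eq_one_left (a := x) (b := x)
            (by rw [← sq]; exact S.exp x (hBA hx.1))]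
          exact hx }
    obtain ⟨Γ, ⟨hΓB, hNΓ, hcΓ⟩, hmax⟩ := (Set.toFinite
      {C : Subgroup G | C ≤ B ∧ NB ≤ C ∧ c ∉ C}).exists_maximal
      ⟨NB, fun x hx => hx.1, le_rfl, fun h => hnc h.2⟩
    have hcc : ∀ x, x ∈ B → c * (c * x) = x := fun x _ => by
      rw [← mul_assoc, ← sq, S.exp c (hBA hc), one_mul]
    have hcompl : ∀ x ∈ B, x ∈ Γ ∨ c * x ∈ Γ := by
      intro x hx
      by_contra hnot
      push Not at hnot
      let Γ' : Subgroup G :=
        { carrier := {y | y ∈ B ∧ (y ∈ Γ ∨ x * y ∈ Γ)}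
          one_mem' := ⟨one_mem _, Or.inl (one_mem _)⟩
          mul_mem' := by
            rintro y z ⟨hy, hy'⟩ ⟨hz, hz'⟩
            refine ⟨mul_mem hy hz, ?_⟩
            have hyx : y * x = x * y := S.comm y (hBA hy) x (hBA hx)
            rcases hy' with hy' | hy' <;> rcases hz' with hz' | hz'
            · exact Or.inl (mul_mem hy' hz')
            · exact Or.inr (by rw [← mul_assoc, ← hyx, mul_assoc]; exact mul_mem hy' hz')
            · exact Or.inr (by rw [← mul_assoc]; exact mul_mem hy' hz')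
            · refine Or.inl ?_
              have h := mul_mem hy' hz'
              rwa [show x * y * (x * z) = x * (y * x) * z by group, hyx, ← mul_assoc x x, ← sq,
                S.exp x (hBA hx), one_mul] at h
          inv_mem' := by
            rintro y ⟨hy1, hy2⟩
            rw [Set.mem_setOf_eq, inv_eq_of_mul_eq_one_left (a := y) (b := y)
              (by rw [← sq]; exact S.exp y (hBA hy1))]
            exact ⟨hy1, hy2⟩ }
      have hΓ' : Γ ≤ Γ' := fun y hy => ⟨hΓB hy, Or.inl hy⟩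
      have hxm : x ∈ Γ' := ⟨hx, Or.inr (by rw [← sq, S.exp x (hBA hx)]; exact one_mem _)⟩
      have hc' : c ∉ Γ' := by
        rintro ⟨-, h | h⟩
        · exact hcΓ h
        · exact hnot.2 (by rwa [S.comm c (hBA hc) x (hBA hx)])
      exact hnot.1 (hmax ⟨(fun y ⟨hy, _⟩ => hy : Γ' ≤ B), hNΓ.trans hΓ', hc'⟩ hΓ' hxm)
    exact S.false_even (V2 := rfl) B Γ hBA hΓB (hBA hc)
      (fun g hg hN => hcΓ (by
        have := mul_mem (hNΓ ⟨mul_mem hc (hΓB hg), hN⟩) (inv_mem hg)
        simpa using this))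
      (fun x hx => (hcompl x hx).imp_right fun h => ⟨hc, h⟩) (Or.inl hc) h1 h3
  · push Not at hmove
    exact S.false_even (V2 := rfl) B B hBA le_rfl ha
      (fun g hg hN => hna (by
        have := hN.mul ι (hmove g hg)
        rwa [mul_assoc, ← sq, S.exp g (hBA hg), mul_one] at this))
      (fun x hx => Or.inl hx) (Or.inr ⟨b, hb, hmove b hb, k, hbk⟩) h1 h3

end CfsgLib.FFModules.PGV
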